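import Mathlib
import Cfsg.Agent.AutPSp.Kernel
import Cfsg.Agent.SympSub.Iso
import Cfsg.Agent.AutPSL.Classes

/-!
Field automorphisms of `PSp_{2m}(F)`: cosets, centralizers and class splitting.
-/

set_option autoImplicit false
set_option linter.unusedSectionVars false

namespace Cfsg.Agent.AutPSp

open Matrix Cfsg.Agent.Linear.Symp
open Cfsg.Agent.AutPSL (twistNorm twistNorm_apply twistNorm_succ twistNorm_central fixedField
  exists_descent exists_norm_eq orderOf_dist orderOf_pos_field fixedUnits)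
open Cfsg.Agent.Forms (sympBil sympBil_apply sympBil_isAlt sympBil_nondegenerate sympForm_apply)

variable {F : Type*} [Field F] {m : ℕ}

local notation "GLn" => GL (Fin m ⊕ Fin m) F
local notation "Mat" => Matrix (Fin m ⊕ Fin m) (Fin m ⊕ Fin m) F
local notation "V" => (Fin m ⊕ Fin m → F)
local notation "𝔅" => sympBil m F
set_option quotPrecheck false
local notation "GS" => ↥(Cfsg.GSp m F)

theorem gspMap_iterate (σ : F ≃+* F) (k : ℕ) (g : GS) :
    (gspMap σ)^[k] g = gspMap (σ ^ k) g := by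
  induction k with
  | zero => apply Subtype.ext; apply Units.ext; ext i j; simp [gspMap_coe]
  | succ k ih =>
    rw [Function.iterate_succ_apply', ih]
    apply Subtype.ext; apply Units.ext; ext i j
    exact (AutPSL.ringAut_pow_succ_apply σ k _).symm

theorem twistNorm_coe (σ : F ≃+* F) (d : GS) (k : ℕ) :
    ((twistNorm (gspMap σ) d k : GS) : GLn) =
      twistNorm (GeneralLinearGroup.map σ.toRingHom) (d : GLn) k := by
  induction k with
  | zero => rfl
  | succ k ih =>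
    show ((d : GLn) * GeneralLinearGroup.map σ.toRingHom ((twistNorm (gspMap σ) d k : GS) : GLn)) = _
    rw [ih]; rfl

theorem mem_fixedField' {σ : F ≃+* F} {a : F} : a ∈ fixedField σ ↔ σ a = a := Iff.rfl

/-- Hilbert 90 in `GL` with an arbitrary index type of the shape `Fin m ⊕ Fin m`. -/
theorem exists_descent_sum (σ : F ≃+* F) {r : ℕ} (hr : 0 < r) (hσr : σ ^ r = 1)
    (hdist : ∀ i j : Fin r, σ ^ (i : ℕ) = σ ^ (j : ℕ) → i = j) (d : GLn)
    (hN : twistNorm (GeneralLinearGroup.map σ.toRingHom) d r = 1) :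
    ∃ h : GLn, d = h * (GeneralLinearGroup.map σ.toRingHom h)⁻¹ := by
  let e : Fin m ⊕ Fin m ≃ Fin (m + m) := finSumFinEquiv
  let E : GLn ≃* GL (Fin (m + m)) F :=
    Units.mapEquiv (Matrix.reindexAlgEquiv F F e).toMulEquiv
  have hE : ∀ g : GLn, E (GeneralLinearGroup.map σ.toRingHom g) =
      GeneralLinearGroup.map σ.toRingHom (E g) := fun g => Units.ext rfl
  have hEN : ∀ k, E (twistNorm (GeneralLinearGroup.map σ.toRingHom) d k) =
      twistNorm (GeneralLinearGroup.map σ.toRingHom) (E d) k := by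
    intro k
    induction k with
    | zero => exact map_one E
    | succ k ih =>
      show E (d * _) = E d * _
      rw [map_mul, hE, ih]
  obtain ⟨h, hh⟩ := exists_descent σ hr hσr hdist (E d) (by rw [← hEN, hN, map_one])
  refine ⟨E.symm h, E.injective ?_⟩
  rw [map_mul, map_inv, hE, E.apply_symm_apply, hh]

/-- A form which is `σ`-semi-invariant is similar to the standard form by a `σ`-fixed matrix. -/
theorem exists_fixed_normal_form (hm : 1 ≤ m) (σ : F ≃+* F) (h : GLn) (ν : F)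
    (hν : ∀ u v, 𝔅 ((h : Mat) *ᵥ u) ((h : Mat) *ᵥ v) =
      ν * σ (𝔅 ((h : Mat) *ᵥ fun i => σ.symm (u i)) ((h : Mat) *ᵥ fun i => σ.symm (v i)))) :
    ∃ M : GLn, GeneralLinearGroup.map σ.toRingHom M = M ∧ h * M ∈ Cfsg.GSp m F := by
  classical
  set F₀ := fixedField σ with hF₀
  let e : Fin m ⊕ Fin m → V := fun i => Pi.single i 1
  let K : Fin m ⊕ Fin m → Fin m ⊕ Fin m → F := fun i j => 𝔅 ((h : Mat) *ᵥ e i) ((h : Mat) *ᵥ e j)
  have hK : ∀ i j, K i j = ν * σ (K i j) := fun i j => by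
    have h1 := hν (e i) (e j)
    have he : ∀ i, (fun k => σ.symm (e i k)) = e i := fun i => by
      funext k; simp [e, Pi.single_apply, apply_ite σ.symm]
    simp only [he] at h1
    exact h1
  obtain ⟨a, b, hab⟩ : ∃ a b, K a b ≠ 0 := by
    by_contra hall
    push Not at hall
    obtain ⟨u, v, huv⟩ := exists_pair_one (F := F) hm
    have h1 : (sympBil m F).compl₁₂ (Matrix.toLin' (h : Mat)) (Matrix.toLin' (h : Mat)) = 0 := by
      refine LinearMap.BilinForm.ext_basis (Pi.basisFun F (Fin m ⊕ Fin m)) fun i j => ?_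
      simpa [e, K] using hall i j
    have h2 := congrArg (fun B : LinearMap.BilinForm F V =>
      B (((h⁻¹ : GLn) : Mat) *ᵥ u) (((h⁻¹ : GLn) : Mat) *ᵥ v)) h1
    simp only [LinearMap.compl₁₂_apply, Matrix.toLin'_apply, mulVec_mulVec, ← Units.val_mul,
      mul_inv_cancel, Units.val_one, one_mulVec, huv, LinearMap.zero_apply] at h2
    exact one_ne_zero h2
  set k₀ := K a b
  have hfix : ∀ i j, σ (K i j / k₀) = K i j / k₀ := fun i j => by
    have hν0 : ν ≠ 0 := fun e0 => hab (by show K a b = 0; rw [hK a b, e0, zero_mul])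
    have hσ0 : σ k₀ ≠ 0 := by simpa using hab
    rw [map_div₀]
    conv_rhs => rw [hK i j, show k₀ = ν * σ k₀ from hK a b, mul_div_mul_left _ _ hν0]
  let B₀ : LinearMap.BilinForm ↥F₀ (Fin m ⊕ Fin m → ↥F₀) :=
    Matrix.toBilin' (Matrix.of fun i j => (⟨K i j / k₀, hfix i j⟩ : ↥F₀))
  let ι : (Fin m ⊕ Fin m → ↥F₀) → V := fun x i => (x i : F)
  have hB₀ : ∀ x y, k₀ * ((B₀ x y : ↥F₀) : F) = 𝔅 ((h : Mat) *ᵥ ι x) ((h : Mat) *ᵥ ι y) := by
    intro x y
    have hx : ∀ x : Fin m ⊕ Fin m → ↥F₀, ι x = ∑ i, (x i : F) • e i := fun x => pi_eq_sum_univ' (ι x)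
    rw [hx x, hx y]
    simp only [B₀, Matrix.toBilin'_apply, Matrix.mulVec_sum, Matrix.mulVec_smul, map_sum, map_smul,
      LinearMap.coe_sum, Finset.sum_apply, LinearMap.smul_apply, smul_eq_mul, Matrix.of_apply,
      AddSubmonoidClass.coe_finsetSum, MulMemClass.coe_mul, Finset.mul_sum]
    conv_rhs => rw [Finset.sum_comm]
    refine Finset.sum_congr rfl fun i _ => Finset.sum_congr rfl fun j _ => ?_
    show _ = _ * (_ * K i j)
    field_simp
  have hBalt : B₀.IsAlt := fun x => by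
    have := hB₀ x x
    rw [sympBil_isAlt.self_eq_zero, mul_eq_zero] at this
    exact Subtype.ext (this.resolve_left hab)
  have hBnd : B₀.Nondegenerate := by
    refine (LinearMap.IsRefl.nondegenerate_iff_separatingLeft (LinearMap.IsAlt.isRefl hBalt)).2 fun x hx => ?_
    have h0 : (h : Mat) *ᵥ ι x = 0 := by
      by_contra hne
      obtain ⟨y, hy⟩ := exists_bil_eq_one hne
      have hall : (sympBil m F ((h : Mat) *ᵥ ι x)).comp (Matrix.toLin' (h : Mat)) = 0 := by
        refine (Pi.basisFun F (Fin m ⊕ Fin m)).ext fun j => ?_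
        have h1 := hB₀ x (Pi.single j 1)
        rw [hx, show ι (Pi.single j (1 : ↥F₀)) = e j by
          funext k; simp [ι, e, Pi.single_apply, apply_ite Subtype.val]] at h1
        simpa [e] using h1.symm
      have h2 := congrArg (fun f : V →ₗ[F] F => f (((h⁻¹ : GLn) : Mat) *ᵥ y)) hall
      simp only [LinearMap.comp_apply, Matrix.toLin'_apply, mulVec_mulVec, ← Units.val_mul,
        mul_inv_cancel, Units.val_one, one_mulVec, hy, LinearMap.zero_apply] at h2
      exact one_ne_zero h2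
    have h1 : ι x = 0 := by
      by_contra hne
      exact mulVec_ne_zero h hne h0
    funext i
    exact Subtype.ext (congrFun h1 i)
  obtain ⟨eqv, heqv⟩ := SympSub.exists_iso_sympBil hBalt hBnd (k := m)
    (by simp [Module.finrank_pi, Fintype.card_sum]; ring)
  let N : GL (Fin m ⊕ Fin m) ↥F₀ :=
    GeneralLinearGroup.toLin.symm (LinearMap.GeneralLinearGroup.ofLinearEquiv eqv.symm)
  let M : GLn := GeneralLinearGroup.map F₀.subtype N
  have hN : ∀ x, (N : Matrix _ _ ↥F₀) *ᵥ x = eqv.symm x := fun x => by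
    show LinearMap.toMatrix' eqv.symm.toLinearMap *ᵥ x = _
    rw [LinearMap.toMatrix'_mulVec]; rfl
  refine ⟨M, Units.ext (Matrix.ext fun i j =>
    show σ (((N : Matrix _ _ ↥F₀) i j : ↥F₀) : F) = _ from mem_fixedField'.1 ((N : Matrix _ _ ↥F₀) i j).2), mem_GSp_iff.2
    ⟨Units.mk0 k₀ hab, ?_⟩⟩
  have hM : ∀ j, (M : Mat) *ᵥ e j = ι ((N : Matrix _ _ ↥F₀) *ᵥ Pi.single j 1) := fun j => by
    funext i
    simp [M, e, ι, Matrix.mulVec_single]
  suffices hbas : (sympBil m F).compl₁₂ (Matrix.toLin' ((h * M : GLn) : Mat))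
      (Matrix.toLin' ((h * M : GLn) : Mat)) = k₀ • sympBil m F by
    intro u v
    have := congrArg (fun B : LinearMap.BilinForm F V => B u v) hbas
    simpa using this
  refine LinearMap.BilinForm.ext_basis (Pi.basisFun F (Fin m ⊕ Fin m)) fun i j => ?_
  simp only [LinearMap.compl₁₂_apply, Matrix.toLin'_apply, Pi.basisFun_apply, Units.val_mul,
    ← mulVec_mulVec, LinearMap.smul_apply, smul_eq_mul]
  rw [show (M : Mat) *ᵥ Pi.single i (1 : F) = _ from hM i,
    show (M : Mat) *ᵥ Pi.single j (1 : F) = _ from hM j, ← hB₀, hN, hN, ← heqv,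
    eqv.apply_symm_apply, eqv.apply_symm_apply]
  congr 1
  simp only [sympBil_apply, sympForm_apply, AddSubmonoidClass.coe_finsetSum, AddSubgroupClass.coe_sub,
    MulMemClass.coe_mul]
  simp [Pi.single_apply, apply_ite Subtype.val]

theorem field_coset [Finite F] (hm : 2 ≤ m) (σ : F ≃+* F) {r : ℕ} (hσ : orderOf σ = r) (d : GS)
    (h : (conjAut d * fieldAut σ : MulAut (Cfsg.PSp m F)) ^ r = 1) :
    ∃ g : GS, conjAut d * fieldAut σ = conjAut g * fieldAut σ * (conjAut g : MulAut (Cfsg.PSp m F))⁻¹ := by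
  have hr : 0 < r := hσ ▸ orderOf_pos_field σ
  have hσr : σ ^ r = 1 := hσ ▸ pow_orderOf_eq_one σ
  set τ : GS →* GS := gspMap σ with hτ
  have hN := twistNorm_apply conjAut (fieldAut σ : MulAut (Cfsg.PSp m F)) τ
    (fun g => fieldAut_mul_conjAut σ g) d r
  rw [h, ← map_pow, hσr, map_one, mul_one] at hN
  obtain ⟨c, hc⟩ := (conjAut_eq_one_iff hm).1 hN.symm
  have hfix : σ (c : F) = c := by
    have h1 : d * τ (twistNorm τ d r) = twistNorm τ d r * d := by
      have := twistNorm_succ τ d r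
      rwa [gspMap_iterate, hσr, show gspMap (1 : F ≃+* F) d = d from
        Subtype.ext (Units.ext (Matrix.ext fun _ _ => rfl))] at this
    rw [hc, scal_mul_comm, mul_right_inj, hτ, gspMap_scal] at h1
    have h3 := congrArg (fun u : Fˣ => (u : F)) (scal_injective (by omega) h1)
    simpa using h3
  obtain ⟨μ, hμ⟩ := exists_norm_eq σ hr hσr (orderOf_dist σ hσ) (c := c⁻¹) (by simp [hfix])
  have hμN : ∀ k, twistNorm τ (scal μ) k =
      (scal (twistNorm (Units.map σ.toRingHom.toMonoidHom) μ k) : GS) := by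
    intro k
    induction k with
    | zero => exact (map_one _).symm
    | succ k ih =>
      show scal μ * τ _ = scal (μ * _)
      rw [ih, hτ, gspMap_scal, ← map_mul]
  have hone : twistNorm τ (scal μ * d) r = 1 := by
    have hk : ∀ k, twistNorm τ (scal μ * d) k = twistNorm τ (scal μ) k * twistNorm τ d k := by
      intro k
      induction k with
      | zero => exact (one_mul _).symm
      | succ k ih =>
        show scal μ * d * τ _ = scal μ * τ (twistNorm τ (scal μ) k) * (d * τ _)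
        rw [ih, map_mul, hμN, hτ, gspMap_scal]
        simp only [← mul_assoc]
        rw [mul_assoc (scal μ) d, ← scal_mul_comm, ← mul_assoc]
    rw [hk, hμN, hμ, hc, ← map_mul, inv_mul_cancel, map_one]
  set g₁ : GS := scal μ * d with hg₁
  obtain ⟨h', hh'⟩ := exists_descent_sum σ hr hσr (orderOf_dist σ hσ) (g₁ : GLn)
    (by rw [← twistNorm_coe, hone]; rfl)
  set ν := mult (by omega : 1 ≤ m) g₁ with hν
  obtain ⟨M, hM, hMS⟩ := exists_fixed_normal_form (by omega) σ h' (ν : F) (fun u v => by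
    have hh : ∀ u : V, (h' : Mat) *ᵥ u =
        ((g₁ : GLn) : Mat) *ᵥ vmap σ ((h' : Mat) *ᵥ fun i => σ.symm (u i)) := by
      intro u
      rw [hh', Units.val_mul, ← mulVec_mulVec]
      congr 1
      have h2 : vmap σ ((h' : Mat) *ᵥ fun i => σ.symm (u i)) =
          (GeneralLinearGroup.map σ.toRingHom h' : GLn).1 *ᵥ u := by
        rw [show (GeneralLinearGroup.map σ.toRingHom h' : GLn).1 *ᵥ u =
          (h' : Mat).map σ.toRingHom *ᵥ (fun i => σ.toRingHom (σ.symm (u i))) by simp, map_app]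
        rfl
      rw [h2, mulVec_mulVec, ← Units.val_mul, inv_mul_cancel, Units.val_one, one_mulVec]
    rw [hh u, hh v, mult_spec (by omega : 1 ≤ m), bil_vmap])
  set g : GS := ⟨h' * M, hMS⟩ with hg
  refine ⟨g, ?_⟩
  have hgg : g₁ = g * (gspMap σ g)⁻¹ := by
    apply Subtype.ext
    show (g₁ : GLn) = h' * M * (GeneralLinearGroup.map σ.toRingHom (h' * M))⁻¹
    rw [hh', map_mul, hM, _root_.mul_inv_rev, mul_assoc h' M, mul_inv_cancel_left]
  have h1 : (conjAut g₁ : MulAut (Cfsg.PSp m F)) = conjAut d := by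
    rw [hg₁, map_mul, conjAut_scal, one_mul]
  rw [← h1, hgg, map_mul, mul_assoc, mul_assoc, ← map_inv, ← map_inv, fieldAut_mul_conjAut, map_inv]

theorem mem_cent_field (hm : 2 ≤ m) (σ : F ≃+* F) (g : GS) :
    g ∈ (Subgroup.centralizer {(fieldAut σ : MulAut (Cfsg.PSp m F))}).comap conjAut ↔
      ∃ μ : Fˣ, gspMap σ (scal μ * g) = scal μ * g := by
  rw [AutPSL.mem_comap_centralizer, fieldAut_mul_conjAut, mul_left_inj]
  constructor
  · intro h
    have h2 : conjAut (g⁻¹ * gspMap σ g) = (1 : MulAut (Cfsg.PSp m F)) := by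
      rw [map_mul, map_inv, ← h, inv_mul_cancel]
    obtain ⟨l, hl⟩ := (conjAut_eq_one_iff hm).1 h2
    have hmap : gspMap σ g = g * scal l := by rw [← hl, mul_inv_cancel_left]
    obtain ⟨i, j, hij⟩ : ∃ i j, ((g : GLn) : Mat) i j ≠ 0 := by
      by_contra h0
      push Not at h0
      haveI : Nonempty (Fin m ⊕ Fin m) := ⟨Sum.inl ⟨0, by omega⟩⟩
      exact Units.ne_zero (GeneralLinearGroup.det (g : GLn)) (by
        rw [GeneralLinearGroup.val_det_apply, show ((g : GLn) : Mat) = 0 from Matrix.ext h0]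
        exact Matrix.det_zero)
    have hent : ∀ a b, σ (((g : GLn) : Mat) a b) = (l : F) * ((g : GLn) : Mat) a b := fun a b => by
      have := congrArg (fun x : GS => ((x : GLn) : Mat) a b) hmap
      simp [gspMap_coe, Units.val_mul, scal_coe] at this
      exact this
    refine ⟨(Units.mk0 _ hij)⁻¹, Subtype.ext (Units.ext (Matrix.ext fun a b => ?_))⟩
    rw [gspMap_coe, Matrix.map_apply, show ((scal (Units.mk0 _ hij)⁻¹ * g : GS) : GLn).1 a b =
      (((g : GLn) : Mat) i j)⁻¹ * ((g : GLn) : Mat) a b by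
        rw [Subgroup.coe_mul, Units.val_mul, scal_coe, Matrix.smul_mul, one_mul, Matrix.smul_apply,
          smul_eq_mul, Units.val_inv_eq_inv_val, Units.val_mk0], map_mul, map_inv₀, hent, hent]
    have hl0 : (l : F) ≠ 0 := l.ne_zero
    field_simp
  · rintro ⟨μ, hμ⟩
    have e1 : conjAut (scal μ * g) = (conjAut g : MulAut (Cfsg.PSp m F)) := by
      rw [map_mul, conjAut_scal, one_mul]
    rw [map_mul, gspMap_scal] at hμ
    have e2 := congrArg (conjAut : GS → MulAut (Cfsg.PSp m F)) hμ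
    rw [e1, map_mul, conjAut_scal, one_mul] at e2
    exact e2.symm

theorem map_mem_GSp_iff (hm : 1 ≤ m) {F₀ : Type*} [Field F₀] (e : F₀ →+* F)
    (g : GL (Fin m ⊕ Fin m) F₀) :
    GeneralLinearGroup.map e g ∈ Cfsg.GSp m F ↔ g ∈ Cfsg.GSp m F₀ := by
  have hmap : ∀ u v : Fin m ⊕ Fin m → F₀,
      Cfsg.sympForm m F ((GeneralLinearGroup.map e g : GLn).1 *ᵥ fun i => e (u i))
        ((GeneralLinearGroup.map e g : GLn).1 *ᵥ fun i => e (v i)) =
      e (Cfsg.sympForm m F₀ (g.1 *ᵥ u) (g.1 *ᵥ v)) := by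
    intro u v
    have h : ∀ w : Fin m ⊕ Fin m → F₀, (GeneralLinearGroup.map e g : GLn).1 *ᵥ (fun i => e (w i)) =
        fun i => e ((g.1 *ᵥ w) i) := fun w => funext fun i => (RingHom.map_mulVec e g.1 w i).symm
    rw [h, h]
    simp only [sympForm_apply, map_sum, map_sub, map_mul]
  constructor
  · rintro ⟨c, hc⟩
    obtain ⟨u, v, huv⟩ := exists_pair_one (F := F₀) (m := m) hm
    rw [sympBil_apply] at huv
    have hc' : e (Cfsg.sympForm m F₀ (g.1 *ᵥ u) (g.1 *ᵥ v)) = c := by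
      rw [← hmap, hc]
      simp only [sympForm_apply] at huv ⊢
      simp only [← map_mul, ← map_sub, ← map_sum, huv, map_one, mul_one]
    have hne : Cfsg.sympForm m F₀ (g.1 *ᵥ u) (g.1 *ᵥ v) ≠ 0 := fun h => c.ne_zero (by rw [← hc', h, map_zero])
    refine ⟨Units.mk0 _ hne, fun u' v' => e.injective ?_⟩
    rw [← hmap, hc, map_mul, Units.val_mk0, hc']
    simp only [sympForm_apply, map_sum, map_sub, map_mul]
  · rintro ⟨c, hc⟩
    refine mem_GSp_iff.2 ⟨Units.map e.toMonoidHom c, fun u v => ?_⟩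
    suffices h : (sympBil m F).compl₁₂ (Matrix.toLin' (GeneralLinearGroup.map e g : GLn).1)
        (Matrix.toLin' (GeneralLinearGroup.map e g : GLn).1) = (e c) • sympBil m F by
      have := congrArg (fun B : LinearMap.BilinForm F V => B u v) h
      simpa using this
    refine LinearMap.BilinForm.ext_basis (Pi.basisFun F (Fin m ⊕ Fin m)) fun i j => ?_
    have he : ∀ i, (Pi.single i 1 : V) = fun k => e ((Pi.single i (1 : F₀) : Fin m ⊕ Fin m → F₀) k) :=
      fun i => by funext k; simp [Pi.single_apply, apply_ite e]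
    simp only [LinearMap.compl₁₂_apply, Matrix.toLin'_apply, Pi.basisFun_apply, LinearMap.smul_apply,
      smul_eq_mul, sympBil_apply]
    rw [he i, he j, hmap, hc, map_mul]
    simp only [sympForm_apply, map_sum, map_sub, map_mul]

theorem field_centralizer (hm : 2 ≤ m) (σ : F ≃+* F) {F₀ : Type*} [Field F₀] (e : F₀ →+* F)
    (he : ∀ a : F, σ a = a ↔ ∃ b, e b = a) :
    Nonempty (↥(Cfsg.inndiagPSp m F ⊓ Subgroup.centralizer {(fieldAut σ : MulAut (Cfsg.PSp m F))}) ≃*
      Cfsg.PGSp m F₀) := by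
  let inc : ↥(Cfsg.GSp m F₀) →* GS :=
    ((GeneralLinearGroup.map e).comp (Cfsg.GSp m F₀).subtype).codRestrict (Cfsg.GSp m F)
      fun g => (map_mem_GSp_iff (by omega) e g.1).2 g.2
  have hmem : ∀ g, conjAut (inc g) ∈
      Cfsg.inndiagPSp m F ⊓ Subgroup.centralizer {(fieldAut σ : MulAut (Cfsg.PSp m F))} := fun g => by
    refine Subgroup.mem_inf.2 ⟨mem_inndiagPSp.2 ⟨_, rfl⟩,
      Subgroup.mem_comap.1 ((mem_cent_field hm σ _).2 ⟨1, ?_⟩)⟩
    rw [map_one, one_mul]
    exact Subtype.ext (Units.ext (Matrix.ext fun i j => (he _).2 ⟨_, rfl⟩))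
  let Φ : ↥(Cfsg.GSp m F₀) →* ↥(Cfsg.inndiagPSp m F ⊓
      Subgroup.centralizer {(fieldAut σ : MulAut (Cfsg.PSp m F))}) :=
    (conjAut.comp inc).codRestrict _ hmem
  have hsurj : Function.Surjective Φ := by
    rintro ⟨β, hβ⟩
    obtain ⟨g, rfl⟩ := mem_inndiagPSp.1 hβ.1
    obtain ⟨μ, hμ⟩ := (mem_cent_field hm σ g).1 hβ.2
    choose b hb using fun i j => (he (((scal μ * g : GS) : GLn).1 i j)).1
      (show (((gspMap σ (scal μ * g) : GS) : GLn) : Mat) i j = _ by rw [hμ])
    have hdet : (Matrix.of b).det ≠ 0 := fun h0 => by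
      have h1 : e ((Matrix.of b).det) = ((scal μ * g : GS) : GLn).1.det := by
        rw [RingHom.map_det]
        congr 1
        ext i j
        exact hb i j
      rw [h0, map_zero] at h1
      exact Units.ne_zero (GeneralLinearGroup.det ((scal μ * g : GS) : GLn)) h1.symm
    set g₀ := GeneralLinearGroup.mkOfDetNeZero _ hdet with hg₀
    have hmap : GeneralLinearGroup.map e g₀ = ((scal μ * g : GS) : GLn) :=
      Units.ext (Matrix.ext fun i j => hb i j)
    refine ⟨⟨g₀, (map_mem_GSp_iff (by omega) e g₀).1 (hmap ▸ (scal μ * g).2)⟩, Subtype.ext ?_⟩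
    show conjAut (inc _) = _
    rw [show inc ⟨g₀, _⟩ = scal μ * g from Subtype.ext hmap, map_mul, conjAut_scal, one_mul]
  have hker : Φ.ker = (Cfsg.Geo.scalars (Fin m ⊕ Fin m) F₀).subgroupOf (Cfsg.GSp m F₀) := by
    ext g
    rw [MonoidHom.mem_ker, Subtype.ext_iff, Subgroup.mem_subgroupOf, Cfsg.Geo.mem_scalars_iff]
    show conjAut (inc g) = 1 ↔ _
    rw [conjAut_eq_one_iff hm]
    constructor
    · rintro ⟨c, hc⟩
      have hent : ∀ i j, e ((g : GL (Fin m ⊕ Fin m) F₀).1 i j) = if i = j then (c : F) else 0 := fun i j => by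
        have := congrArg (fun x : GS => ((x : GLn) : Mat) i j) hc
        rw [scal_coe, Matrix.smul_apply, Matrix.one_apply, smul_eq_mul, mul_ite, mul_one, mul_zero] at this
        exact this
      set i₀ : Fin m ⊕ Fin m := Sum.inl ⟨0, by omega⟩
      have hne : (g : GL (Fin m ⊕ Fin m) F₀).1 i₀ i₀ ≠ 0 := fun h0 => c.ne_zero (by
        have := hent i₀ i₀; rw [h0, map_zero, if_pos rfl] at this; exact this.symm)
      refine ⟨Units.mk0 _ hne, Matrix.ext fun i j => e.injective ?_⟩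
      rw [hent, Matrix.smul_apply, Matrix.one_apply, Units.val_mk0, smul_eq_mul, map_mul, hent, if_pos rfl]
      split_ifs <;> simp
    · rintro ⟨c, hc⟩
      refine ⟨Units.map e.toMonoidHom c, Subtype.ext (Units.ext ?_)⟩
      show (g : GL (Fin m ⊕ Fin m) F₀).1.map e = _
      rw [scal_coe, hc]
      ext i j
      rcases eq_or_ne i j with rfl | h <;> simp [*]
  exact ⟨((QuotientGroup.quotientMulEquivOfEq hker.symm).trans
    (QuotientGroup.quotientKerEquivOfSurjective Φ hsurj)).symm⟩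

theorem field_split [Finite F] (hm : 2 ≤ m) (σ : F ≃+* F) :
    Cfsg.splitClassCount (Cfsg.inndiagPSp m F) (Cfsg.Inn (Cfsg.PSp m F)) (fieldAut σ) =
      Nat.gcd 2 ((Nat.card F - 1) / (Nat.card ↥(fixedField σ) - 1)) := by
  have h1 : 1 ≤ m := by omega
  haveI : ((spToGSp (m := m) (F := F)).range).Normal := by rw [← ker_mult h1]; infer_instance
  rw [inndiagPSp_eq_range, inn_eq_map,
    AutPSL.splitClassCount_eq_index conjAut _ _ ((Subgroup.centralizer {fieldAut σ}).comap conjAut)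
      (AutPSL.mem_comap_centralizer conjAut _),
    ← ker_mult h1, ← Subgroup.index_map_eq _ (mult_surjective h1) le_sup_left, Subgroup.map_sup,
    show ((mult (F := F) h1).ker.map (mult h1)) = ⊥ from (Subgroup.map_eq_bot_iff _).2 le_rfl,
    bot_sup_eq, ← AutPSL.index_fixedUnits, ← AutPSL.index_pow_sup 2 (fixedUnits σ)]
  congr 1
  apply le_antisymm
  · rintro _ ⟨g, hg, rfl⟩
    obtain ⟨μ, hμ⟩ := (mem_cent_field hm σ g).1 hg
    have h2 : mult h1 (scal μ * g) ∈ fixedUnits σ := by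
      have := congrArg (mult h1) hμ
      rw [mult_gspMap] at this
      exact congrArg (fun u : Fˣ => (u : F)) this
    have h3 : mult h1 g = (μ⁻¹) ^ 2 * mult h1 (scal μ * g) := by
      rw [map_mul, mult_scal, sq, ← mul_assoc, mul_mul_mul_comm μ⁻¹, inv_mul_cancel, one_mul, one_mul]
    rw [h3]
    exact Subgroup.mul_mem_sup ⟨_, rfl⟩ h2
  · refine sup_le ?_ ?_
    · rintro _ ⟨μ, rfl⟩
      refine ⟨scal μ, (mem_cent_field hm σ _).2 ⟨μ⁻¹, ?_⟩, ?_⟩
      · rw [← map_mul, inv_mul_cancel, map_one, map_one]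
      · rw [mult_scal, powMonoidHom_apply, sq]
    · intro u hu
      refine ⟨⟨diagSim u, mem_GSp_iff.2 ⟨u, diagSim_spec u⟩⟩, (mem_cent_field hm σ _).2 ⟨1, ?_⟩,
        mult_eq h1 (diagSim_spec u)⟩
      rw [map_one, one_mul]
      refine Subtype.ext (Units.ext (Matrix.ext fun i j => ?_))
      have hu' : σ (u : F) = u := hu
      show σ ((Matrix.diagonal _ : Mat) i j) = _
      rcases eq_or_ne i j with rfl | h
      · cases i <;> simp [diagSim, hu']
      · simp [diagSim, h]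

theorem field_std {x : MulAut (Cfsg.PSp m F)} (hm : 2 ≤ m) (hx : Cfsg.IsFieldAutClassPSp x) :
    ∃ (α : MulAut (Cfsg.PSp m F)) (σ : F ≃+* F),
      α * x * α⁻¹ = fieldAut σ ∧ σ ≠ 1 ∧ orderOf σ = orderOf x := by
  obtain ⟨α, σ, hσ, h⟩ := hx
  rw [isStdFieldAutPSp_iff] at h
  refine ⟨α, σ, h, hσ, ?_⟩
  rw [← AutPSL.orderOf_conj_eq α x, h, orderOf_injective fieldAut (fieldAut_injective hm)]

theorem order_iff_conj [Finite F] (hm : 2 ≤ m) {x δ : MulAut (Cfsg.PSp m F)}
    (hx : Cfsg.IsFieldAutClassPSp x) {r : ℕ} (hxr : orderOf x = r) (hδ : δ ∈ Cfsg.inndiagPSp m F) :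
    orderOf (δ * x) = r ↔ Cfsg.IsConjUnder (Cfsg.inndiagPSp m F) x (δ * x) := by
  haveI hN := inndiagPSp_normal' (F := F) hm
  refine ⟨fun h => ?_, ?_⟩
  swap
  · rintro ⟨h, -, e⟩
    rw [e, AutPSL.orderOf_conj_eq, hxr]
  have hpow := pow_orderOf_eq_one (δ * x)
  rw [h] at hpow
  obtain ⟨α, σ, hα, -, hσ⟩ := field_std hm hx
  rw [← AutPSL.isConjUnder_conj_iff α]
  have e : α * (δ * x) * α⁻¹ = (α * δ * α⁻¹) * (α * x * α⁻¹) := by group
  obtain ⟨d, hd⟩ := mem_inndiagPSp.1 (hN.conj_mem δ hδ α)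
  rw [e, hα, hd]
  have hp : (conjAut d * fieldAut σ : MulAut (Cfsg.PSp m F)) ^ r = 1 := by
    rw [← hd, ← hα, ← e, conj_pow, hpow, mul_one, mul_inv_cancel]
  obtain ⟨g, hg⟩ := field_coset hm σ (hσ.trans hxr) d hp
  exact ⟨conjAut g, mem_inndiagPSp.2 ⟨g, rfl⟩, hg⟩

theorem field_class [Finite F] (hm : 2 ≤ m) {x : MulAut (Cfsg.PSp m F)}
    (hx : Cfsg.IsFieldAutClassPSp x) {p f r : ℕ} [Fact p.Prime] (hF : Nat.card F = p ^ f)
    (hxr : orderOf x = r) (F₀ : Type*) [Field F₀] [Finite F₀] (hF₀ : Nat.card F₀ = p ^ (f / r)) :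
    r ∣ f ∧ Nonempty (↥(Cfsg.inndiagPSp m F ⊓ Subgroup.centralizer {x}) ≃* Cfsg.PGSp m F₀) ∧
      Cfsg.splitClassCount (Cfsg.inndiagPSp m F) (Cfsg.Inn (Cfsg.PSp m F)) x =
        Nat.gcd 2 ((p ^ f - 1) / (p ^ (f / r) - 1)) := by
  haveI := inndiagPSp_normal' (F := F) hm
  haveI := AutPSL.inn_normal (Cfsg.PSp m F)
  obtain ⟨α, σ, hα, -, hσ⟩ := field_std hm hx
  obtain ⟨hrf, hcard⟩ := AutPSL.fixedField_exponent σ hF (hσ.trans hxr)
  obtain ⟨e, he⟩ := AutPSL.exists_embedding σ F₀ (hF₀.trans hcard.symm)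
  obtain ⟨E⟩ := field_centralizer hm σ e he
  refine ⟨hrf, ⟨(AutPSL.centEquiv _ α x).trans ((MulEquiv.subgroupCongr (by rw [hα])).trans E)⟩, ?_⟩
  rw [← AutPSL.splitClassCount_conj _ _ α x, hα, field_split hm σ, hcard, hF]

end Cfsg.Agent.AutPSp
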