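import Mathlib
import Cfsg.Agent.AutPSp.Main

/-!
The square of every automorphism of `PSp_{2m}(F)` is semilinear (this covers the exceptional case
`m = 2`, even characteristic).
-/

set_option autoImplicit false
set_option linter.unusedSectionVars false

namespace Cfsg.Agent.AutPSp

open Matrix Cfsg.Agent.Linear.Symp Cfsg.Agent.SympSub
open Cfsg.Agent.Forms (sympBil sympBil_apply sympBil_isAlt sympBil_nondegenerate)

variable {F : Type*} [Field F] {m : ℕ}

local notation "Sp" => Matrix.symplecticGroup (Fin m) F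
local notation "V" => (Fin m ⊕ Fin m → F)
local notation "𝔅" => sympBil m F

/-- The images of the short root elements. -/
def IsShort (x : Cfsg.PSp m F) : Prop :=
  ∃ a w : V, 𝔅 a w = 0 ∧ LinearIndependent F ![a, w] ∧ x = proj (short a w 1)

theorem app_ne_zero (g : Sp) {v : V} (hv : v ≠ 0) : app g v ≠ 0 := fun h =>
  hv (by rw [← app_inv_app g v, h]; exact Matrix.mulVec_zero _)

theorem isShort_conj {x : Cfsg.PSp m F} (hx : IsShort x) (k : Cfsg.PSp m F) :
    IsShort (k * x * k⁻¹) := by
  obtain ⟨a, w, hB, hli, rfl⟩ := hx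
  obtain ⟨g, rfl⟩ := proj_surjective k
  refine ⟨app g a, app g w, by rw [sympBil_app, hB], ?_, by
    rw [← map_inv, ← map_mul, ← map_mul, short_conj]⟩
  have ha : a ≠ 0 := fun h => hli.ne_zero 0 (by simpa using h)
  rw [LinearIndependent.pair_iff' (app_ne_zero g ha)]
  intro c hc
  refine (LinearIndependent.pair_iff' ha).1 hli c ?_
  rw [← app_inv_app g w, ← hc, ← app_inv_app g a, app_inv_app]
  exact ((Matrix.mulVec_smul _ _ _).trans (congrArg (c • ·) (app_inv_app g a))).symm

theorem not_isTau_of_isShort (hm : 2 ≤ m) {x : Cfsg.PSp m F} (hx : IsShort x) : ¬ IsTau x := by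
  haveI : NeZero m := ⟨by omega⟩
  obtain ⟨a, w, hB, hli, rfl⟩ := hx
  rintro ⟨b, c, hb, hc, h⟩
  obtain ⟨s, hs⟩ := (proj_eq_proj_iff.1 h) b |>.imp fun _ h => h
  obtain ⟨a', ha'⟩ : ∃ y : F, ∀ v, app (tau b c) v = y • app (short a w 1) v := by
    rw [proj_apply, proj_apply, QuotientGroup.eq] at h
    obtain ⟨y, -, hy⟩ := center_scalar h
    refine ⟨y, fun v => ?_⟩
    have e : app (tau b c) v = app (short a w 1) (app ((short a w 1)⁻¹ * tau b c) v) := by
      rw [← app_mul, mul_inv_cancel_left]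
    rw [e, hy]
    exact Matrix.mulVec_smul _ _ _
  -- `a' = 1`, at a common fixed vector
  have ha : a ≠ 0 := fun h => hli.ne_zero 0 (by simpa using h)
  have hfix : ∀ v, app (short a w (1 : F)) v = v + 𝔅 v a • w + 𝔅 v w • a := fun v => by
    rw [app_short hB, one_mul, one_mul]
  have key : ∀ v, 𝔅 v b = 0 → 𝔅 v a = 0 → 𝔅 v w = 0 → v ≠ 0 → a' = 1 := fun v h1 h2 h3 hv => by
    have := ha' v
    rw [app_tau_eq_self c h1, hfix, h2, h3, zero_smul, zero_smul, add_zero, add_zero] at this
    exact smul_left_injective F hv (by simpa using this.symm)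
  have hy : a' = 1 := by
    let L : V →ₗ[F] F × F × F :=
      ((sympBil m F).flip b).prod (((sympBil m F).flip a).prod ((sympBil m F).flip w))
    have h : LinearMap.ker L ≠ ⊥ := LinearMap.ker_ne_bot_of_finrank_lt (by
      simp only [Module.finrank_prod, Module.finrank_self, Module.finrank_pi, Fintype.card_sum,
        Fintype.card_fin]
      omega)
    obtain ⟨v, hv, hv0⟩ := Submodule.exists_mem_ne_zero_of_ne_bot h
    have := LinearMap.mem_ker.1 hv
    simp only [L, LinearMap.prod_apply, Function.prod_apply, Prod.mk_eq_zero] at this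
    exact key v this.1 this.2.1 this.2.2 hv0
  subst hy
  have hrange : ∀ v, 𝔅 v a • w + 𝔅 v w • a = (c * 𝔅 v b) • b := fun v => by
    have := ha' v
    rw [one_smul, app_tau, hfix, add_assoc, add_right_inj] at this
    exact this.symm
  obtain ⟨u, hu⟩ := exists_bil_eq_one' ha
  obtain ⟨u', hu', hu1⟩ : ∃ u, 𝔅 u a = 0 ∧ 𝔅 u w ≠ 0 := by
    by_contra h
    push Not at h
    obtain ⟨t, ht⟩ := exists_eq_smul_of_orth h
    exact (LinearIndependent.pair_iff' ha).1 hli t ht
  have e1 := hrange u'
  rw [hu', zero_smul, zero_add] at e1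
  have e2 := hrange u
  rw [hu, one_smul] at e2
  refine (LinearIndependent.pair_iff' ha).1 hli (-(𝔅 u w) + (c * 𝔅 u b) / (c * 𝔅 u' b) * 𝔅 u' w) ?_
  have hne : c * 𝔅 u' b ≠ 0 := fun h0 => by
    rw [h0, zero_smul, smul_eq_zero] at e1
    exact e1.elim hu1 ha
  rw [add_smul, neg_smul, mul_smul, e1, smul_smul, div_mul_cancel₀ _ hne, ← e2]
  abel

variable [Finite F]

theorem isTau_sq_apply (hm : 2 ≤ m) (β : MulAut (Cfsg.PSp m F)) {x : Cfsg.PSp m F} (hx : IsTau x) :
    IsTau ((β * β) x) := by
  by_cases hp : (2 : F) ≠ 0 ∨ 3 ≤ m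
  · exact isTau_apply hm hp β (isTau_apply hm hp β hx)
  push Not at hp
  obtain ⟨h2, hm3⟩ := hp
  obtain rfl : m = 2 := by omega
  classical
  haveI := Fintype.ofFinite F
  -- transvections form one class
  have hclass : ∀ x y : Cfsg.PSp 2 F, IsTau x → IsTau y → ∃ k, y = k * x * k⁻¹ := by
    rintro _ _ ⟨a, c, ha, hc, rfl⟩ ⟨b, d, hb, hd, rfl⟩
    obtain ⟨s, hs⟩ := exists_sq_eq h2 c
    obtain ⟨t, ht⟩ := exists_sq_eq h2 d
    have hs0 : s ≠ 0 := fun e => hc (by rw [← hs, e]; ring)
    have ht0 : t ≠ 0 := fun e => hd (by rw [← ht, e]; ring)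
    obtain ⟨g, hg⟩ := exists_app_eq (smul_ne_zero hs0 ha) (smul_ne_zero ht0 hb)
    refine ⟨proj g, ?_⟩
    rw [← map_inv, ← map_mul, ← map_mul,
      show tau a c = tau (s • a) 1 by rw [tau_smul, one_mul, hs],
      show tau b d = tau (t • b) 1 by rw [tau_smul, one_mul, ht], tau_conj, hg]
  have hshort : ∀ x y : Cfsg.PSp 2 F, IsShort x → IsShort y → ∃ k, y = k * x * k⁻¹ := by
    rintro _ _ ⟨a, w, hB, hli, rfl⟩ ⟨a', w', hB', hli', rfl⟩
    have hiso : ∀ {a w : Fin 2 ⊕ Fin 2 → F}, sympBil 2 F a w = 0 → LinearIndependent F ![a, w] →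
        IsIsoTuple ![a, w] := fun {a w} hB hli => ⟨hli, fun i j => by
      fin_cases i <;> fin_cases j <;> simp [hB, bil_swap w a, sympBil_isAlt.self_eq_zero]⟩
    obtain ⟨g, hg⟩ := exists_move (hiso hB hli) (hiso hB' hli')
    obtain ⟨g', rfl⟩ := (spEquiv 2 F).surjective g
    refine ⟨proj g', ?_⟩
    rw [← map_inv, ← map_mul, ← map_mul, short_conj, show app g' a = a' from hg 0,
      show app g' w = w' from hg 1]
  have cases' : ∀ (γ : MulAut (Cfsg.PSp 2 F)) (x : Cfsg.PSp 2 F), IsTau x →
      IsTau (γ x) ∨ IsShort (γ x) := by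
    intro γ x hx
    rcases apply_cases hm γ hx with h | ⟨-, z, a, w, e, hB, hli, hform, hinv, k, hk⟩
    · exact Or.inl h
    refine Or.inr ?_
    rw [hk]
    refine isShort_conj ⟨a, w, hB, hli, ?_⟩ k
    congr 1
    rcases eq_or_ne e 0 with rfl | he
    · refine sp_ext fun v => ?_
      rw [hform, app_short hB, one_mul, one_mul, zero_mul, add_zero]
    exfalso
    -- the class of a mixed element is too large
    set q := Fintype.card F with hq
    have hq2 : 2 ≤ q := Fintype.one_lt_card
    have ha : a ≠ 0 := fun h => hli.ne_zero 0 (by simpa using h)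
    have hproj : Function.Injective (proj : Matrix.symplecticGroup (Fin 2) F → Cfsg.PSp 2 F) := by
      intro s t h
      rw [proj_apply, proj_apply, QuotientGroup.eq] at h
      obtain ⟨c, hc, hcv⟩ := center_scalar h
      have hc1 : c = 1 := by
        have : (c - 1) * (c - 1) = 0 := by linear_combination hc + (1 - c) * h2
        exact sub_eq_zero.1 (mul_self_eq_zero.1 this)
      exact inv_mul_eq_one.1 (sp_ext fun v => by rw [hcv, hc1, one_smul, app_one])
    let T := {s : Fin 2 → (Fin 2 ⊕ Fin 2 → F) // IsIsoTuple s}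
    have haw : IsIsoTuple ![a, w] := ⟨hli, fun i j => by
      fin_cases i <;> fin_cases j <;> simp [hB, bil_swap w a, sympBil_isAlt.self_eq_zero]⟩
    have hmove : ∀ s : T, ∃ g, app g a = s.1 0 ∧ app g w = s.1 1 := fun s => by
      obtain ⟨g, hg⟩ := exists_move haw s.2
      obtain ⟨g', rfl⟩ := (spEquiv 2 F).surjective g
      exact ⟨g', hg 0, hg 1⟩
    choose g hg0 hg1 using hmove
    have hv : ∀ t, ∃ v : Fin 2 ⊕ Fin 2 → F, v ≠ 0 ∧ γ⁻¹ (proj (g t * z * (g t)⁻¹)) = proj (tau v 1) := fun t => by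
      obtain ⟨b, c, hb, hc, hbc⟩ := hinv (g t)
      obtain ⟨d, hd⟩ := exists_sq_eq h2 c
      have hd0 : d ≠ 0 := fun e => hc (by rw [← hd, e]; ring)
      exact ⟨d • b, smul_ne_zero hd0 hb, by rw [tau_smul, one_mul, hd]; exact hbc⟩
    choose v hv0 hv using hv
    let Φ : T → {u : Fin 2 ⊕ Fin 2 → F // u ≠ 0} := fun s => ⟨v s, hv0 s⟩
    -- the invariant `B(z x - x, x) = e B(x,a)^2`
    have hinvform : ∀ (s : T) (x : Fin 2 ⊕ Fin 2 → F),
        sympBil 2 F (app (g s * z * (g s)⁻¹) x - x) x = e * sympBil 2 F x (s.1 0) ^ 2 := by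
      intro s x
      obtain ⟨x, rfl⟩ : ∃ x', x = app (g s) x' :=
        ⟨app (g s)⁻¹ x, by rw [← app_mul, mul_inv_cancel, app_one]⟩
      rw [app_mul, app_mul, app_inv_app, ← hg0, sympBil_app]
      have : app (g s) (app z x) - app (g s) x = app (g s) (app z x - x) :=
        (Matrix.mulVec_sub _ _ _).symm
      rw [this, sympBil_app, hform, add_assoc, add_sub_cancel_left]
      simp only [map_add, map_smul, LinearMap.add_apply, LinearMap.smul_apply, smul_eq_mul,
        bil_swap w x, bil_swap a x]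
      linear_combination -(sympBil 2 F x a * sympBil 2 F x w + e * sympBil 2 F x a ^ 2) * h2
    have hfib : ∀ s s' : T, Φ s = Φ s' →
        (∃ c : F, c ≠ 0 ∧ s'.1 0 = c • s.1 0) ∧ ∃ c d : F, d ≠ 0 ∧ s'.1 1 = c • s.1 0 + d • s.1 1 := by
      intro s s' h
      have he' : g s * z * (g s)⁻¹ = g s' * z * (g s')⁻¹ := hproj (γ⁻¹.injective (by
        rw [hv, hv, show v s = v s' from congrArg Subtype.val h]))
      obtain ⟨c, hc⟩ := exists_eq_smul_of_orth (a := s.1 0) (b := s'.1 0) fun x hx => by
        have h1 := hinvform s x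
        rw [he', hinvform s' x, hx] at h1
        simpa [he] using h1
      have h0 : s'.1 0 ≠ 0 := s'.2.1.ne_zero 0
      have hc0 : c ≠ 0 := fun e => h0 (by rw [← hc, e, zero_smul])
      have hrange : ∀ (t : T) (x : Fin 2 ⊕ Fin 2 → F),
          app (g t * z * (g t)⁻¹) x - x ∈ Submodule.span F ({t.1 0, t.1 1} : Set _) := by
        intro t x
        obtain ⟨x, rfl⟩ : ∃ x', x = app (g t) x' :=
          ⟨app (g t)⁻¹ x, by rw [← app_mul, mul_inv_cancel, app_one]⟩
        rw [app_mul, app_mul, app_inv_app,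
          show app (g t) (app z x) - app (g t) x = app (g t) (app z x - x) from
            (Matrix.mulVec_sub _ _ _).symm, hform, add_assoc, add_sub_cancel_left,
          show app (g t) (sympBil 2 F x a • w + (sympBil 2 F x w + e * sympBil 2 F x a) • a) =
            sympBil 2 F x a • app (g t) w + (sympBil 2 F x w + e * sympBil 2 F x a) • app (g t) a by
            simp [app, Matrix.mulVec_add, Matrix.mulVec_smul], hg0, hg1]
        exact Submodule.mem_span_pair.2 ⟨_, _, add_comm _ _⟩
      obtain ⟨ya, hya⟩ := exists_bil_eq_one' ha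
      have hw' : app (g s') (app z ya - ya) ∈ Submodule.span F ({s.1 0, s.1 1} : Set _) := by
        rw [show app (g s') (app z ya - ya) = app (g s') (app z ya) - app (g s') ya from
          Matrix.mulVec_sub _ _ _]
        have := hrange s (app (g s') ya)
        rw [he', app_mul, app_mul, app_inv_app] at this
        exact this
      rw [hform, add_assoc, add_sub_cancel_left, hya, one_smul,
        show app (g s') (w + (sympBil 2 F ya w + e * 1) • a) =
          app (g s') w + (sympBil 2 F ya w + e * 1) • app (g s') a by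
          simp [app, Matrix.mulVec_add, Matrix.mulVec_smul], hg0, hg1] at hw'
      have hmem : s'.1 1 ∈ Submodule.span F ({s.1 0, s.1 1} : Set _) := by
        have h' := Submodule.sub_mem _ hw' (Submodule.smul_mem _ (sympBil 2 F ya w + e * 1)
          (show s'.1 0 ∈ Submodule.span F ({s.1 0, s.1 1} : Set _) from
            hc ▸ Submodule.smul_mem _ _ (Submodule.subset_span (by simp))))
        simpa using h'
      obtain ⟨c', d', hcd⟩ := Submodule.mem_span_pair.1 hmem
      refine ⟨⟨c, hc0, hc.symm⟩, c', d', fun hd => ?_, hcd.symm⟩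
      rw [hd, zero_smul, add_zero] at hcd
      have hp := s'.2.1
      rw [← show ![s'.1 0, s'.1 1] = s'.1 from funext fun i => by fin_cases i <;> rfl,
        LinearIndependent.pair_iff' h0] at hp
      exact hp (c' / c) (by rw [← hc, smul_smul, div_mul_cancel₀ _ hc0, hcd])
    have hfibcard : ∀ u, (Finset.univ.filter fun s => Φ s = u).card ≤ (q - 1) * (q * (q - 1)) := by
      intro u
      rcases (Finset.univ.filter fun s => Φ s = u).eq_empty_or_nonempty with h | ⟨s, hs⟩
      · simp [h]
      have hsu := (Finset.mem_filter.1 hs).2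
      have hsub : ∀ s' ∈ Finset.univ.filter (fun s => Φ s = u), ∃ c : {x : F // x ≠ 0} × F × {x : F // x ≠ 0},
          s'.1 0 = (c.1 : F) • s.1 0 ∧ s'.1 1 = c.2.1 • s.1 0 + (c.2.2 : F) • s.1 1 := by
        intro s' hs'
        obtain ⟨⟨c, hc0, hc⟩, c', d', hd0, hcd⟩ := hfib s s' (hsu.trans (Finset.mem_filter.1 hs').2.symm)
        exact ⟨(⟨c, hc0⟩, c', ⟨d', hd0⟩), hc, hcd⟩
      choose c hc using hsub
      have := Finset.card_le_card_of_injOn
        (s := (Finset.univ.filter fun s => Φ s = u).attach)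
        (t := (Finset.univ : Finset ({x : F // x ≠ 0} × F × {x : F // x ≠ 0})))
        (fun s' => c s'.1 s'.2) (fun _ _ => Finset.mem_univ _) (fun x _ y _ hxy => by
          apply Subtype.ext
          apply Subtype.ext
          simp only at hxy
          funext i
          fin_cases i
          · show x.1.1 0 = y.1.1 0; rw [(hc x.1 x.2).1, (hc y.1 y.2).1, hxy]
          · show x.1.1 1 = y.1.1 1; rw [(hc x.1 x.2).2, (hc y.1 y.2).2, hxy])
      rw [Finset.card_attach] at this
      refine this.trans (le_of_eq ?_)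
      rw [Finset.card_univ, Fintype.card_prod, Fintype.card_prod, Fintype.card_subtype_compl,
        Fintype.card_subtype_eq]
    have hcount := Finset.card_le_mul_card_image (f := Φ) (Finset.univ : Finset T) _
      (fun u _ => hfibcard u)
    have hT : Fintype.card T = (q ^ 4 - 1) * (q ^ 3 - q) := by
      rw [← Nat.card_eq_fintype_card, card_isoTuple, Finset.prod_range_succ, Finset.prod_range_one]
      simp [hq]
    have hV : Fintype.card {u : Fin 2 ⊕ Fin 2 → F // u ≠ 0} = q ^ 4 - 1 := by
      rw [Fintype.card_subtype_compl, Fintype.card_subtype_eq, Fintype.card_fun, Fintype.card_sum,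
        Fintype.card_fin]
    rw [Finset.card_univ, hT] at hcount
    have himcard : (Finset.image Φ Finset.univ).card ≤ q ^ 4 - 1 := hV ▸ Finset.card_le_univ _
    have hN : 0 < q ^ 4 - 1 := by
      have : 1 < q ^ 4 := Nat.one_lt_pow (by omega) hq2
      omega
    have hbig : (q - 1) * (q * (q - 1)) < q ^ 3 - q := by
      obtain ⟨k, hk⟩ : ∃ k, q = k + 2 := ⟨q - 2, by omega⟩
      rw [hk, show k + 2 - 1 = k + 1 by omega]
      have h3 : (k + 2) ^ 3 = (k + 1) * ((k + 2) * (k + 1)) + (k + 2) + 2 * (k + 1) * (k + 2) := by ring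
      have : 0 < 2 * (k + 1) * (k + 2) := by positivity
      omega
    have h5 : (q ^ 4 - 1) * (q ^ 3 - q) ≤ (q - 1) * (q * (q - 1)) * (q ^ 4 - 1) :=
      hcount.trans (Nat.mul_le_mul_left _ himcard)
    rw [mul_comm ((q - 1) * (q * (q - 1)))] at h5
    exact absurd (Nat.le_of_mul_le_mul_left h5 hN) (by omega)
  rcases cases' β x hx with h1 | h1
  · rcases cases' β _ h1 with h | h
    · exact h
    exfalso
    obtain ⟨k, hk⟩ := hclass x (β x) hx h1
    apply not_isTau_of_isShort hm h
    rw [hk, map_mul, map_mul, map_inv]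
    exact isTau_conj h1 _
  · rcases cases' (β * β) x hx with h | h
    · exact h
    exfalso
    obtain ⟨k, hk⟩ := hshort (β x) ((β * β) x) h1 h
    obtain ⟨l, rfl⟩ := β.surjective k
    rw [MulAut.mul_apply, ← map_inv, ← map_mul, ← map_mul] at hk
    exact not_isTau_of_isShort hm h1 (β.injective hk ▸ isTau_conj hx l)

/-- The square of every automorphism is semilinear. -/
theorem exists_decomp_sq (hm : 2 ≤ m) (β : MulAut (Cfsg.PSp m F)) :
    ∃ (g : ↥(Cfsg.GSp m F)) (σ : F ≃+* F), β * β = conjAut g * fieldAut σ :=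
  exists_decomp_of_preserves hm _ (fun _ h => isTau_sq_apply hm β h) fun _ h => by
    have := isTau_sq_apply hm β⁻¹ h
    rwa [_root_.mul_inv_rev]

end Cfsg.Agent.AutPSp
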