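import Mathlib
import Cfsg.Agent.AutPSp.Four
import Cfsg.Agent.AutPSp.Field
import Cfsg.Agent.Cores.Basic
import Cfsg.Agent.Linear.SmallIsoSymp

/-!
`O_{p'}` of centralizers of field automorphisms of `PSp_{2m}(F)`.
-/

set_option autoImplicit false
set_option linter.unusedSectionVars false

namespace Cfsg.Agent.AutPSp

open Matrix Cfsg.Agent.Linear.Symp
open Cfsg.Agent.Forms (sympBil sympBil_apply sympBil_isAlt sympBil_nondegenerate)
open Cfsg.Agent.AutPSL (fixedField)

variable {F : Type*} [Field F] {m : ℕ}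

local notation "V" => (Fin m ⊕ Fin m → F)
set_option quotPrecheck false
local notation "GS" => ↥(Cfsg.GSp m F)
local notation "A⋆" => MulAut (Cfsg.PSp m F)

/-- An automorphism fixing one transvection is semilinear. -/
theorem exists_decomp_of_fix [Finite F] (hm : 2 ≤ m) (a : A⋆) {x₀ : Cfsg.PSp m F} (hx₀ : IsTau x₀)
    (hfix : a x₀ = x₀) : ∃ (g : GS) (ρ : F ≃+* F), a = conjAut g * fieldAut ρ := by
  by_cases hp : (2 : F) ≠ 0 ∨ 3 ≤ m
  · exact exists_decomp hm hp a
  push Not at hp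
  have hpres : ∀ γ : A⋆, γ x₀ = x₀ → ∀ y, IsTau y → IsTau (γ y) := by
    intro γ hγ y hy
    obtain ⟨b, d, hb, hd, rfl⟩ := hy
    obtain ⟨c', e, hc', he, rfl⟩ := hx₀
    obtain ⟨s, hs⟩ := exists_sq_eq hp.1 e
    obtain ⟨t, ht⟩ := exists_sq_eq hp.1 d
    have hs0 : s ≠ 0 := fun h => he (by rw [← hs, h]; ring)
    have ht0 : t ≠ 0 := fun h => hd (by rw [← ht, h]; ring)
    obtain ⟨g, hg⟩ := exists_app_eq (smul_ne_zero hs0 hc') (smul_ne_zero ht0 hb)
    rw [show tau b d = tau (t • b) 1 by rw [tau_smul, one_mul, ht], ← hg, ← tau_conj, map_mul,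
      map_mul, map_inv, map_mul, map_mul, map_inv, tau_smul, one_mul, hs, hγ]
    exact isTau_conj ⟨c', e, hc', he, rfl⟩ _
  exact exists_decomp_of_preserves hm a (hpres a hfix)
    (hpres a⁻¹ (by conv_lhs => rw [← hfix]; simp))

section Sub

variable (σ : F ≃+* F)

theorem fixedField_incl_fix (a : ↥(fixedField σ)) : σ ((fixedField σ).subtype a) = (fixedField σ).subtype a :=
  a.2

/-- `GSp` over the fixed field, inside `GSp`. -/
def subGSp (hm : 1 ≤ m) : ↥(Cfsg.GSp m ↥(fixedField σ)) →* GS :=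
  ((GeneralLinearGroup.map (fixedField σ).subtype).comp
    (Cfsg.GSp m ↥(fixedField σ)).subtype).codRestrict (Cfsg.GSp m F)
    fun g => (map_mem_GSp_iff hm (fixedField σ).subtype g.1).2 g.2

/-- `Sp` over the fixed field, inside the automorphism group. -/
noncomputable def subSp (hm : 1 ≤ m) :
    Matrix.symplecticGroup (Fin m) ↥(fixedField σ) →* A⋆ :=
  (conjAut.comp (subGSp σ hm)).comp spToGSp

theorem gspMap_subGSp (hm : 1 ≤ m) (g : ↥(Cfsg.GSp m ↥(fixedField σ))) :
    gspMap σ (subGSp σ hm g) = subGSp σ hm g :=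
  Subtype.ext (Units.ext (Matrix.ext fun _ _ => fixedField_incl_fix σ _))

theorem subSp_mem (hm : 2 ≤ m) (s : Matrix.symplecticGroup (Fin m) ↥(fixedField σ)) :
    subSp σ (by omega : 1 ≤ m) s ∈ Cfsg.Inn (Cfsg.PSp m F) ⊓ Subgroup.centralizer {fieldAut σ} := by
  have h1 : 1 ≤ m := by omega
  refine Subgroup.mem_inf.2 ⟨?_, Subgroup.mem_comap.1 ((mem_cent_field hm σ _).2 ⟨1, ?_⟩)⟩
  · rw [inn_eq_map, ← ker_mult h1]
    refine ⟨subGSp σ h1 (spToGSp s), ?_, rfl⟩
    show mult h1 _ = 1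
    refine mult_eq h1 fun u v => ?_
    have h : (sympBil m F).compl₁₂
        (Matrix.toLin' (((subGSp σ h1 (spToGSp s) : GS) : GL (Fin m ⊕ Fin m) F) : Matrix _ _ F))
        (Matrix.toLin' (((subGSp σ h1 (spToGSp s) : GS) : GL (Fin m ⊕ Fin m) F) : Matrix _ _ F)) =
        sympBil m F := by
      refine LinearMap.BilinForm.ext_basis (Pi.basisFun F (Fin m ⊕ Fin m)) fun i j => ?_
      have he : ∀ i, (Pi.single i 1 : V) = fun k => (fixedField σ).subtype
          ((Pi.single i (1 : ↥(fixedField σ)) : Fin m ⊕ Fin m → ↥(fixedField σ)) k) := fun i => by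
        funext k; simp [Pi.single_apply, apply_ite Subtype.val]
      have hmul : ∀ w : Fin m ⊕ Fin m → ↥(fixedField σ),
          (((subGSp σ h1 (spToGSp s) : GS) : GL (Fin m ⊕ Fin m) F) : Matrix _ _ F) *ᵥ
            (fun k => (fixedField σ).subtype (w k)) = fun k => (fixedField σ).subtype (app s w k) :=
        fun w => funext fun k => (RingHom.map_mulVec (fixedField σ).subtype _ w k).symm
      have hmap : ∀ x y : Fin m ⊕ Fin m → ↥(fixedField σ),
          Cfsg.sympForm m F (fun k => (fixedField σ).subtype (x k)) (fun k => (fixedField σ).subtype (y k)) =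
            (fixedField σ).subtype (Cfsg.sympForm m _ x y) := fun x y => by
        simp only [Forms.sympForm_apply, map_sum, map_sub, map_mul]
      simp only [LinearMap.compl₁₂_apply, Matrix.toLin'_apply, Pi.basisFun_apply, sympBil_apply]
      rw [he i, he j, hmul, hmul, hmap, hmap, Forms.mem_symplecticGroup_iff_sympForm.1 s.2]
    have h' := congrArg (fun B : LinearMap.BilinForm F V => B u v) h
    simpa using h'
  · rw [map_one, one_mul, gspMap_subGSp]

theorem subSp_ker (hm : 2 ≤ m) :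
    (subSp σ (by omega : 1 ≤ m)).ker = Subgroup.center (Matrix.symplecticGroup (Fin m) ↥(fixedField σ)) := by
  haveI : NeZero m := ⟨by omega⟩
  ext s
  rw [MonoidHom.mem_ker, mem_center_iff]
  show conjAut (subGSp σ (by omega : 1 ≤ m) (spToGSp s)) = 1 ↔ _
  rw [conjAut_eq_one_iff hm]
  constructor
  · rintro ⟨c, hc⟩
    have hent : ∀ i j, (s.1 i j : F) =
        if i = j then (c : F) else 0 := fun i j => by
      have h := congrArg (fun x : GS => ((x : GL (Fin m ⊕ Fin m) F) : Matrix _ _ F) i j) hc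
      rw [scal_coe, Matrix.smul_apply, Matrix.one_apply, smul_eq_mul, mul_ite, mul_one, mul_zero] at h
      exact h
    have h0 := hent (Sum.inl 0) (Sum.inl 0)
    rw [if_pos rfl] at h0
    refine fun v => ⟨s.1 (Sum.inl 0) (Sum.inl 0),
      funext fun i => ?_⟩
    show (s.1 *ᵥ v) i = _
    have hdiag : s.1 = Matrix.diagonal fun _ =>
        s.1 (Sum.inl 0) (Sum.inl 0) := by
      ext i j
      rw [hent, Matrix.diagonal_apply]
      split_ifs with hij
      · exact h0.symm
      · rfl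
    conv_lhs => rw [hdiag, Matrix.mulVec_diagonal]
    rfl
  · intro h
    obtain ⟨c, hc⟩ := exists_eq_scalar _ h
    have hc0 : (c : F) ≠ 0 := fun e => by
      have := hc (Pi.single (Sum.inl 0) 1)
      rw [show c = 0 from Subtype.ext e, zero_smul] at this
      exact app_ne_zero s (by simp) this
    refine ⟨Units.mk0 _ hc0, Subtype.ext (Units.ext (Matrix.ext fun i j => ?_))⟩
    have := congrArg Subtype.val (congrFun (hc (Pi.single j 1)) i)
    rw [scal_coe]
    simp [Matrix.one_apply, Pi.single_apply, apply_ite Subtype.val] at this ⊢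
    exact this

theorem subSp_normalized (hm : 2 ≤ m) {a : A⋆} (ha : a ∈ Cfsg.inndiagPSp m F)
    (hc : a ∈ Subgroup.centralizer {(fieldAut σ : A⋆)}) {b : A⋆}
    (hb : b ∈ (subSp σ (by omega : 1 ≤ m)).range) :
    a * b * a⁻¹ ∈ (subSp σ (by omega : 1 ≤ m)).range ∧
      (a ^ 2 ∈ (subSp σ (by omega : 1 ≤ m)).range) := by
  have h1 : 1 ≤ m := by omega
  obtain ⟨g, rfl⟩ := mem_inndiagPSp.1 ha
  obtain ⟨μ, hμ⟩ := (mem_cent_field hm σ g).1 hc
  have hmem : GeneralLinearGroup.map (fixedField σ).subtype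
      (GeneralLinearGroup.mkOfDetNeZero
        (Matrix.of fun i j => (⟨((scal μ * g : GS) : GL (Fin m ⊕ Fin m) F).1 i j,
          show σ _ = _ from (show (((gspMap σ (scal μ * g) : GS) : GL (Fin m ⊕ Fin m) F) : Matrix _ _ F) i j = _ by
            rw [hμ])⟩ : ↥(fixedField σ)))
        (fun h0 => by
          have h2 : (fixedField σ).subtype (Matrix.det (Matrix.of fun i j =>
              (⟨((scal μ * g : GS) : GL (Fin m ⊕ Fin m) F).1 i j,
              show σ _ = _ from (show (((gspMap σ (scal μ * g) : GS) : GL (Fin m ⊕ Fin m) F) : Matrix _ _ F) i j = _ by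
                rw [hμ])⟩ : ↥(fixedField σ)))) = ((scal μ * g : GS) : GL (Fin m ⊕ Fin m) F).1.det := by
            rw [RingHom.map_det]; congr 1
          rw [h0, map_zero] at h2
          exact Units.ne_zero (GeneralLinearGroup.det ((scal μ * g : GS) : GL (Fin m ⊕ Fin m) F)) h2.symm)) =
      ((scal μ * g : GS) : GL (Fin m ⊕ Fin m) F) := Units.ext (Matrix.ext fun _ _ => rfl)
  obtain ⟨g₀, hmem⟩ : ∃ g₀ : GL (Fin m ⊕ Fin m) ↥(fixedField σ),
      GeneralLinearGroup.map (fixedField σ).subtype g₀ = ((scal μ * g : GS) : GL (Fin m ⊕ Fin m) F) :=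
    ⟨_, hmem⟩
  have hg₀ : g₀ ∈ Cfsg.GSp m ↥(fixedField σ) :=
    (map_mem_GSp_iff h1 (fixedField σ).subtype g₀).1 (hmem ▸ (scal μ * g).2)
  have hconj : conjAut g = (conjAut (subGSp σ h1 ⟨g₀, hg₀⟩) : A⋆) := by
    rw [show subGSp σ h1 ⟨g₀, hg₀⟩ = scal μ * g from Subtype.ext hmem, map_mul, conjAut_scal, one_mul]
  obtain ⟨s, rfl⟩ := hb
  rw [hconj]
  haveI hnorm : ((spToGSp (m := m) (F := ↥(fixedField σ))).range).Normal := by
    rw [← ker_mult h1]; infer_instance
  constructor
  · obtain ⟨t, ht⟩ := hnorm.conj_mem _ ⟨s, rfl⟩ ⟨g₀, hg₀⟩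
    refine ⟨t, ?_⟩
    show conjAut (subGSp σ h1 (spToGSp t)) = _ * conjAut (subGSp σ h1 (spToGSp s)) * _
    rw [ht, map_mul, map_mul, map_inv, map_mul, map_mul, map_inv]
  · set g' : ↥(Cfsg.GSp m ↥(fixedField σ)) := ⟨g₀, hg₀⟩
    obtain ⟨t, ht⟩ : (scal (mult h1 g'))⁻¹ * (g' * g') ∈ (spToGSp (m := m) (F := ↥(fixedField σ))).range := by
      rw [← ker_mult h1, MonoidHom.mem_ker, map_mul, map_inv, mult_scal, map_mul, inv_mul_cancel]
    refine ⟨t, ?_⟩
    show conjAut (subGSp σ h1 (spToGSp t)) = _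
    have hsc : ∀ c, conjAut (subGSp σ h1 (scal c)) = (1 : A⋆) := fun c =>
      (conjAut_eq_one_iff hm).2 ⟨Units.map (fixedField σ).subtype.toMonoidHom c, by
        apply Subtype.ext; apply Units.ext
        show ((scal c : ↥(Cfsg.GSp m ↥(fixedField σ))) : GL (Fin m ⊕ Fin m) ↥(fixedField σ)).1.map _ = _
        rw [scal_coe, scal_coe]
        ext i j
        rcases eq_or_ne i j with rfl | h <;> simp [*]⟩
    rw [ht, map_mul, map_mul, map_inv, map_inv, hsc, inv_one, one_mul, map_mul, map_mul, sq]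

/-- The centralizer of `φ_σ` and of `Sp` over the fixed field is `⟨φ_σ⟩`. -/
theorem centralizer_subSp [Finite F] (hm : 2 ≤ m) {p : ℕ} [Fact p.Prime] (hσ : orderOf σ = p)
    {a : A⋆} (ha : ∀ s, Commute a (subSp σ (by omega : 1 ≤ m) s)) : a ^ p = 1 := by
  classical
  have h1 : 1 ≤ m := by omega
  haveI : NeZero m := ⟨by omega⟩
  set i₀ : Fin m ⊕ Fin m := Sum.inl ⟨0, by omega⟩
  -- `a` fixes the rational transvections
  have hfix : ∀ w : Fin m ⊕ Fin m → ↥(fixedField σ),
      a (proj (tau (fun i => (w i : F)) (1 : F))) = proj (tau (fun i => (w i : F)) 1) := by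
    intro w
    have hsub : subSp σ h1 (tau w (1 : ↥(fixedField σ))) = MulAut.conj (proj (tau (fun i => (w i : F)) 1)) := by
      rw [← conjAut_spToGSp]
      show conjAut (subGSp σ h1 (spToGSp (tau w 1))) = _
      congr 1
      apply Subtype.ext
      apply Units.ext
      show (Matrix.map (tau w (1 : ↥(fixedField σ))).1 (fixedField σ).subtype) = (tau (fun i => (w i : F)) (1 : F)).1
      show (Cfsg.sympTransvection m w (1 : ↥(fixedField σ))).map (fixedField σ).subtype = Cfsg.sympTransvection m _ 1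
      have hJ : ∀ i, ((Matrix.J (Fin m) ↥(fixedField σ) *ᵥ w) i : F) =
          (Matrix.J (Fin m) F *ᵥ fun i => (w i : F)) i := fun i => by
        cases i <;> simp [Matrix.J, Matrix.fromBlocks_mulVec, Matrix.neg_mulVec]
      ext i j
      simp [Cfsg.sympTransvection, Matrix.one_apply, Matrix.vecMulVec_apply, apply_ite Subtype.val, hJ]
    have h2 := ha (tau w 1)
    rw [hsub] at h2
    set k := proj (tau (fun i => (w i : F)) (1 : F))
    have h3 : MulAut.conj (a k) = MulAut.conj k := by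
      have e : a * MulAut.conj k * a⁻¹ = MulAut.conj (a k) := MulEquiv.ext fun y => by simp
      rw [← e, h2.eq, mul_inv_cancel_right]
    have hcen : ∀ k : Cfsg.PSp m F, MulAut.conj k = 1 → k = 1 := by
      intro k hk
      obtain ⟨s, rfl⟩ := proj_surjective k
      rw [← conjAut_spToGSp, conjAut_eq_one_iff hm] at hk
      obtain ⟨c, hc⟩ := hk
      rw [← map_one proj, eq_comm, proj_eq_proj_iff]
      refine fun v => ⟨(c : F), ?_⟩
      rw [app_one]
      show s.1 *ᵥ v = _
      rw [← spToGSp_coe s, hc, scal_coe, Matrix.smul_mulVec, one_mulVec]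
    exact eq_of_mul_inv_eq_one (hcen _ (by rw [map_mul, map_inv, h3, mul_inv_cancel]))
  let e₀ : Fin m ⊕ Fin m → ↥(fixedField σ) := Pi.single i₀ 1
  have he₀ : (fun i => (e₀ i : F)) ≠ 0 := fun h => by
    have := congrFun h i₀
    simp [e₀] at this
  obtain ⟨g, ρ, rfl⟩ := exists_decomp_of_fix hm a
    ⟨_, 1, he₀, one_ne_zero, rfl⟩ (hfix e₀)
  obtain ⟨ν, hν, hf⟩ := conj_field_tau g ρ
  have hdir : ∀ w : Fin m ⊕ Fin m → ↥(fixedField σ), w ≠ 0 →
      ∃ t : F, ((g : GL (Fin m ⊕ Fin m) F) : Matrix _ _ F) *ᵥ vmap ρ (fun i => (w i : F)) =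
        t • fun i => (w i : F) := by
    intro w hw
    have hw' : (fun i => (w i : F)) ≠ 0 := fun h => hw (funext fun i => Subtype.ext (congrFun h i))
    have h2 := hf (fun i => (w i : F)) 1
    rw [hfix, map_one, one_mul] at h2
    obtain ⟨t, ht⟩ := proj_tau_dir hm hw' (mulVec_ne_zero _ (vmap_ne_zero ρ hw')) one_ne_zero hν h2
    exact ⟨t, ht.symm⟩
  let e : Fin m ⊕ Fin m → V := fun i => Pi.single i 1
  choose t ht using fun i => hdir (Pi.single i 1) (by simp)
  have hge : ∀ i, ((g : GL (Fin m ⊕ Fin m) F) : Matrix _ _ F) *ᵥ e i = t i • e i := fun i => by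
    have h := ht i
    have he : (fun k => (((Pi.single i 1 : Fin m ⊕ Fin m → ↥(fixedField σ)) k : ↥(fixedField σ)) : F)) = e i := by
      funext k; simp [e, Pi.single_apply, apply_ite Subtype.val]
    rw [he] at h
    rwa [show vmap ρ (e i) = e i by funext k; simp [vmap, e, Pi.single_apply, apply_ite ρ]] at h
  have hgen : ∀ i j, i ≠ j → ∀ x : ↥(fixedField σ), ρ (x : F) * t j = (x : F) * t i := by
    intro i j hij x
    have hne : (Pi.single i 1 + Pi.single j x : Fin m ⊕ Fin m → ↥(fixedField σ)) ≠ 0 := fun h0 => by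
      have := congrFun h0 i; simp [hij] at this
    obtain ⟨s, hs⟩ := hdir _ hne
    rw [show (fun k => (((Pi.single i 1 + Pi.single j x : Fin m ⊕ Fin m → ↥(fixedField σ)) k :
        ↥(fixedField σ)) : F)) = e i + (x : F) • e j by
      funext k; simp [e, Pi.single_apply, apply_ite Subtype.val],
      show vmap ρ (e i + (x : F) • e j) = e i + ρ (x : F) • e j by
      funext k; simp [vmap, e, Pi.single_apply, apply_ite ρ], Matrix.mulVec_add, Matrix.mulVec_smul,
      hge, hge] at hs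
    have hi := congrFun hs i
    have hj := congrFun hs j
    simp [e, hij, Ne.symm hij] at hi hj
    rw [hj, hi, mul_comm]
  have hteq : ∀ i, t i = t i₀ := fun i => by
    rcases eq_or_ne i i₀ with rfl | hi
    · rfl
    · simpa using hgen _ _ (Ne.symm hi) 1
  have ht0 : t i₀ ≠ 0 := fun h0 => mulVec_ne_zero (g : GL (Fin m ⊕ Fin m) F) (v := e i₀) (by simp [e])
    (by rw [hge, h0, zero_smul])
  have hg : g = scal (Units.mk0 _ ht0) := by
    refine Subtype.ext (Units.ext ?_)
    rw [scal_coe]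
    refine Matrix.ext_of_mulVec_single fun i => ?_
    rw [Matrix.smul_mulVec, one_mulVec, Units.val_mk0]
    exact (hge i).trans (by rw [hteq])
  have hρ : ∀ x : ↥(fixedField σ), ρ (x : F) = (x : F) := fun x => by
    have h := hgen i₀ (Sum.inr ⟨0, by omega⟩) (by simp [i₀]) x
    rw [hteq (Sum.inr _)] at h
    exact mul_right_cancel₀ ht0 h
  rw [hg, conjAut_scal, one_mul, ← map_pow]
  -- the Galois group over the fixed field has order `p`
  haveI : Algebra.IsAlgebraic ↥(fixedField σ) F := Algebra.IsAlgebraic.of_finite _ _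
  have hcard : Nat.card (F ≃ₐ[↥(fixedField σ)] F) = p := by
    rw [IsGalois.card_aut_eq_finrank]
    have h : Nat.card F = Nat.card ↥(fixedField σ) ^ Module.finrank ↥(fixedField σ) F :=
      Module.natCard_eq_pow_finrank
    rw [AutPSL.card_fixedField_pow σ, hσ] at h
    exact (Nat.pow_right_injective (Finite.one_lt_card (α := ↥(fixedField σ))) h).symm
  let ρ' : F ≃ₐ[↥(fixedField σ)] F := AlgEquiv.ofRingEquiv (f := ρ) fun x => hρ x
  have h := pow_card_eq_one' (x := ρ')
  rw [hcard] at h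
  have hpow : ∀ k : ℕ, ∀ y, (ρ ^ k) y = (ρ' ^ k) y := by
    intro k
    induction k with
    | zero => intro y; rfl
    | succ k ih =>
      intro y
      rw [AutPSL.ringAut_pow_succ_apply, ih, pow_succ']
      rfl
  rw [show ρ ^ p = 1 from RingEquiv.ext fun y => by rw [hpow, h]; rfl, map_one]

end Sub

theorem eqLocus_card_inn (hm : 2 ≤ m) (σ : F ≃+* F) :
    Nat.card ↥(MonoidHom.eqLocus (fieldAut σ : A⋆).toMonoidHom (MonoidHom.id (Cfsg.PSp m F))) =
      Nat.card ↥(Cfsg.Inn (Cfsg.PSp m F) ⊓ Subgroup.centralizer {(fieldAut σ : A⋆)}) := by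
  have hcen : ∀ k : Cfsg.PSp m F, MulAut.conj k = 1 → k = 1 := by
    intro k hk
    haveI : NeZero m := ⟨by omega⟩
    obtain ⟨s, rfl⟩ := proj_surjective k
    rw [← conjAut_spToGSp, conjAut_eq_one_iff hm] at hk
    obtain ⟨c, hc⟩ := hk
    rw [← map_one proj, eq_comm, proj_eq_proj_iff]
    refine fun v => ⟨(c : F), ?_⟩
    rw [app_one]
    show s.1 *ᵥ v = _
    rw [← spToGSp_coe s, hc, scal_coe, Matrix.smul_mulVec, one_mulVec]
  have key : ∀ k : Cfsg.PSp m F, MulAut.conj k * fieldAut σ = fieldAut σ * MulAut.conj k ↔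
      (fieldAut σ : A⋆) k = k := by
    intro k
    have e : fieldAut σ * MulAut.conj k = MulAut.conj ((fieldAut σ : A⋆) k) * fieldAut σ :=
      MulEquiv.ext fun y => by simp
    rw [e, mul_left_inj]
    refine ⟨fun h => (eq_of_mul_inv_eq_one (hcen _ ?_)).symm, fun h => by rw [h]⟩
    rw [map_mul, map_inv, h, mul_inv_cancel]
  let Φ : ↥(MonoidHom.eqLocus (fieldAut σ : A⋆).toMonoidHom (MonoidHom.id (Cfsg.PSp m F))) →
      ↥(Cfsg.Inn (Cfsg.PSp m F) ⊓ Subgroup.centralizer {(fieldAut σ : A⋆)}) := fun k =>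
    ⟨MulAut.conj k.1, Subgroup.mem_inf.2 ⟨⟨k.1, rfl⟩,
      Subgroup.mem_centralizer_singleton_iff.2 ((key k.1).2 k.2)⟩⟩
  refine Nat.card_congr (Equiv.ofBijective Φ ⟨fun k k' h => ?_, ?_⟩)
  · refine Subtype.ext (eq_of_mul_inv_eq_one (hcen _ ?_))
    rw [map_mul, map_inv, show MulAut.conj k.1 = MulAut.conj k'.1 from congrArg Subtype.val h,
      mul_inv_cancel]
  · rintro ⟨_, ⟨k, rfl⟩, hk⟩
    exact ⟨⟨k, (key k).1 (Subgroup.mem_centralizer_singleton_iff.1 hk)⟩, rfl⟩

/-- A normal subgroup of order prime to `p` of `Sp` over a field, modulo the centre, is trivial. -/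
theorem normal_coprime_trivial (hm : 2 ≤ m) {F₀ : Type*} [Field F₀] [Finite F₀] {p : ℕ} [Fact p.Prime]
    (hp2 : (2 : F₀) = 0 → p ≠ 2) {T : Type*} [Group T] (ψ : Matrix.symplecticGroup (Fin m) F₀ →* T)
    (hψ : ψ.ker = Subgroup.center _) (hdvd : p ∣ Nat.card ↥ψ.range)
    (N : Subgroup ↥ψ.range) [N.Normal] (hN : ¬ p ∣ Nat.card ↥N) : N = ⊥ := by
  classical
  haveI : NeZero m := ⟨by omega⟩
  haveI := Fintype.ofFinite F₀
  let E : ↥ψ.range ≃* Cfsg.PSp m F₀ :=
    ((QuotientGroup.quotientMulEquivOfEq hψ.symm).trans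
      (QuotientGroup.quotientKerEquivRange ψ)).symm
  by_cases hP : 3 ≤ m ∨ (m = 2 ∧ 3 ≤ Fintype.card F₀) ∨ 4 ≤ Fintype.card F₀
  · haveI := isSimpleGroup_PSp_of_perfect (commutator_eq_top hP)
    haveI : Nontrivial ↥ψ.range := E.toEquiv.nontrivial
    haveI : IsSimpleGroup ↥ψ.range :=
      IsSimpleGroup.isSimpleGroup_of_surjective E.symm.toMonoidHom E.symm.surjective
    refine (Subgroup.Normal.eq_bot_or_eq_top inferInstance).resolve_right fun h => hN ?_
    rw [h, Nat.card_congr Subgroup.topEquiv.toEquiv]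
    exact hdvd
  · simp only [not_or, not_and, not_le] at hP
    obtain rfl : m = 2 := by omega
    have hq : Fintype.card F₀ = 2 := by
      have := Fintype.one_lt_card (α := F₀)
      have := hP.2.1 rfl
      omega
    obtain ⟨Θ⟩ := sp_four_two_iso hq
    have h2 := two_eq_zero_of_card F₀ hq
    have hbot : Subgroup.center (Matrix.symplecticGroup (Fin 2) F₀) = ⊥ := by
      refine (Subgroup.eq_bot_iff_forall _).2 fun s hs => ?_
      obtain ⟨c, hc, hcv⟩ := center_scalar hs
      have hc1 : c = 1 := by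
        have : (c - 1) * (c - 1) = 0 := by linear_combination hc + (1 - c) * h2
        exact sub_eq_zero.1 (mul_self_eq_zero.1 this)
      exact sp_ext fun v => by rw [hcv, hc1, one_smul, app_one]
    let Ψ : ↥ψ.range ≃* Equiv.Perm (Fin 6) :=
      (E.trans ((QuotientGroup.quotientMulEquivOfEq hbot).trans QuotientGroup.quotientBot)).trans Θ
    let M := N.map Ψ.toMonoidHom
    haveI : M.Normal := Subgroup.Normal.map inferInstance _ Ψ.surjective
    have hMcard : Nat.card ↥M = Nat.card ↥N := Nat.card_congr (N.equivMapOfInjective _ Ψ.injective).symm.toEquiv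
    have hdvd' : p ∣ 720 := by
      rw [Nat.card_congr Ψ.toEquiv, Nat.card_perm, Nat.card_fin] at hdvd
      exact hdvd
    have hA : IsSimpleGroup ↥(alternatingGroup (Fin 6)) := alternatingGroup.isSimpleGroup (by simp)
    rcases (Subgroup.Normal.eq_bot_or_eq_top (H := M.subgroupOf (alternatingGroup (Fin 6))) inferInstance) with h | h
    · have hM : M = ⊥ := by
        refine (Subgroup.eq_bot_iff_forall _).2 fun x hx => ?_
        have hc : ∀ y ∈ alternatingGroup (Fin 6), y * x = x * y := by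
          intro y hy
          have h3 : y * x * y⁻¹ * x⁻¹ ∈ M := mul_mem (Subgroup.Normal.conj_mem inferInstance x hx y) (inv_mem hx)
          have h4 : y * x * y⁻¹ * x⁻¹ ∈ alternatingGroup (Fin 6) := by
            rw [Equiv.Perm.mem_alternatingGroup]
            rw [map_mul, map_mul, map_mul, map_inv, map_inv]
            rcases Int.units_eq_one_or (Equiv.Perm.sign x) with hs | hs <;>
              rcases Int.units_eq_one_or (Equiv.Perm.sign y) with ht | ht <;> simp [hs, ht]
          have h5 : (⟨_, h4⟩ : ↥(alternatingGroup (Fin 6))) ∈ M.subgroupOf (alternatingGroup (Fin 6)) := h3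
          rw [h, Subgroup.mem_bot, Subtype.ext_iff] at h5
          exact mul_inv_eq_iff_eq_mul.1 (mul_inv_eq_one.1 h5)
        by_contra hx1
        obtain ⟨a, ha⟩ : ∃ a, x a ≠ a := by
          by_contra h
          push Not at h
          exact hx1 (Equiv.ext h)
        obtain ⟨c, d, hcb, hdb, hcd, hca, hda⟩ : ∃ c d : Fin 6,
            c ≠ x a ∧ d ≠ x a ∧ c ≠ d ∧ c ≠ a ∧ d ≠ a := by
          revert ha
          generalize x a = b
          revert a b
          decide
        have hy : Equiv.swap (x a) c * Equiv.swap (x a) d ∈ alternatingGroup (Fin 6) := by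
          rw [Equiv.Perm.mem_alternatingGroup, map_mul, Equiv.Perm.sign_swap hcb.symm,
            Equiv.Perm.sign_swap hdb.symm]
          rfl
        have h6 := congrArg (fun f : Equiv.Perm (Fin 6) => f a) (hc _ hy)
        simp [Equiv.Perm.mul_apply, Equiv.swap_apply_of_ne_of_ne, Ne.symm ha, hca.symm, hda.symm,
          hdb, hcd.symm, ha] at h6
      exact (Subgroup.map_eq_bot_iff_of_injective _ Ψ.injective).1 hM
    · exfalso
      rw [Subgroup.subgroupOf_eq_top] at h
      have h360 : Nat.card ↥(alternatingGroup (Fin 6)) ∣ Nat.card ↥M := Subgroup.card_dvd_of_le h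
      rw [hMcard] at h360
      have hc6 : Nat.card ↥(alternatingGroup (Fin 6)) = 360 := by
        rw [nat_card_alternatingGroup, Nat.card_fin]
        rfl
      rw [hc6] at h360
      have hp2' := hp2 h2
      have : p ∣ 360 := (((Nat.coprime_primes Fact.out Nat.prime_two).2 hp2')).dvd_of_dvd_mul_left hdvd'
      exact hN (this.trans h360)

/-- `O_{p'}` of the centralizer of a standard field automorphism. -/
theorem local_std [Finite F] (hm : 2 ≤ m) {p : ℕ} [Fact p.Prime] (hp2 : (2 : F) = 0 → p ≠ 2)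
    (σ : F ≃+* F) (hσ : orderOf σ = p) (A : Subgroup A⋆)
    (hinn : Cfsg.Inn (Cfsg.PSp m F) ≤ A) :
    Cfsg.pPrimeCore p ↥(A ⊓ Subgroup.centralizer {(fieldAut σ : A⋆)}) ≠ ⊥ ↔
      Nat.Coprime p (Nat.card ↥(MonoidHom.eqLocus (fieldAut σ : A⋆).toMonoidHom
        (MonoidHom.id (Cfsg.PSp m F)))) := by
  classical
  have h1 : 1 ≤ m := by omega
  haveI : NeZero m := ⟨by omega⟩
  haveI := AutPSL.inn_normal (Cfsg.PSp m F)
  rw [eqLocus_card_inn hm σ]
  set C := Cfsg.Inn (Cfsg.PSp m F) ⊓ Subgroup.centralizer {(fieldAut σ : A⋆)} with hC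
  set H := A ⊓ Subgroup.centralizer {(fieldAut σ : A⋆)} with hH
  have hCH : C ≤ H := inf_le_inf hinn le_rfl
  haveI hCn : (C.subgroupOf H).Normal := by
    refine ⟨fun c hc h => Subgroup.mem_inf.2 ⟨?_, ?_⟩⟩
    · exact Subgroup.Normal.conj_mem inferInstance _ (Subgroup.mem_inf.1 hc).1 _
    · exact mul_mem (mul_mem (Subgroup.mem_inf.1 h.2).2 (Subgroup.mem_inf.1 hc).2)
        (inv_mem (Subgroup.mem_inf.1 h.2).2)
  constructor
  swap
  · intro hcop hbot
    have hle : C.subgroupOf H ≤ Cfsg.pPrimeCore p ↥H := Cores.le_pPrimeCore hCn (by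
      rw [Nat.card_congr (Subgroup.subgroupOfEquivOfLe hCH).toEquiv]
      exact Nat.Coprime.symm hcop)
    rw [hbot, le_bot_iff, Subgroup.subgroupOf_eq_bot, disjoint_iff, inf_eq_left.2 hCH] at hle
    let w : Fin m ⊕ Fin m → ↥(fixedField σ) := Pi.single (Sum.inl ⟨0, by omega⟩) 1
    have h2 := subSp_mem σ hm (tau w 1)
    rw [← hC, hle, Subgroup.mem_bot, ← MonoidHom.mem_ker, subSp_ker σ hm] at h2
    exact proj_tau_ne_one hm (a := w) (c := (1 : ↥(fixedField σ))) (by simp [w]) one_ne_zero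
      ((QuotientGroup.eq_one_iff _).2 h2)
  · intro hne
    by_contra hcop
    have hpC : p ∣ Nat.card ↥C := by
      by_contra h
      exact hcop ((Nat.Prime.coprime_iff_not_dvd Fact.out).2 h)
    set ψ := subSp (m := m) σ h1 with hψ
    have hLC : ψ.range ≤ C := by rintro _ ⟨s, rfl⟩; exact subSp_mem σ hm s
    have hindiag : C ≤ Cfsg.inndiagPSp m F := by
      rintro a ⟨ha, -⟩
      rw [inn_eq_map] at ha
      obtain ⟨g, -, rfl⟩ := ha
      exact mem_inndiagPSp.2 ⟨g, rfl⟩
    have hnorm : ∀ a ∈ C, ∀ b ∈ ψ.range, a * b * a⁻¹ ∈ ψ.range ∧ a ^ 2 ∈ ψ.range :=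
      fun a ha b hb => subSp_normalized σ hm (hindiag ha) (Subgroup.mem_inf.1 ha).2 hb
    have hpL : p ∣ Nat.card ↥ψ.range := by
      rcases (Fact.out : p.Prime).eq_two_or_odd' with rfl | hodd
      · -- the image of `J`
        let j : Matrix.symplecticGroup (Fin m) ↥(fixedField σ) :=
          ⟨Matrix.J (Fin m) ↥(fixedField σ), SymplecticGroup.J_mem (Fin m) ↥(fixedField σ)⟩
        have hj2 : j * j ∈ Subgroup.center (Matrix.symplecticGroup (Fin m) ↥(fixedField σ)) := by
          rw [mem_center_iff]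
          refine fun v => ⟨-1, ?_⟩
          show (Matrix.J (Fin m) _ * Matrix.J (Fin m) _) *ᵥ v = _
          rw [Matrix.J_squared, Matrix.neg_mulVec, one_mulVec, neg_one_smul]
        have hj1 : j ∉ Subgroup.center (Matrix.symplecticGroup (Fin m) ↥(fixedField σ)) := by
          rw [mem_center_iff]
          intro h
          obtain ⟨c, hc⟩ := h (Pi.single (Sum.inl ⟨0, by omega⟩) 1)
          have := congrFun hc (Sum.inr ⟨0, by omega⟩)
          simp [app, j, Matrix.J, Matrix.fromBlocks, Matrix.mulVec_single, Matrix.one_apply] at this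
        rw [← subSp_ker σ hm, MonoidHom.mem_ker, map_mul] at hj2
        rw [← subSp_ker σ hm, MonoidHom.mem_ker] at hj1
        have ho : orderOf (⟨ψ j, j, rfl⟩ : ↥ψ.range) = 2 := by
          refine orderOf_eq_prime (by rw [sq]; exact Subtype.ext hj2) fun h => hj1 ?_
          exact congrArg Subtype.val h
        exact ho ▸ orderOf_dvd_natCard _
      · obtain ⟨y, hy⟩ := exists_prime_orderOf_dvd_card' p hpC
        have hy2 : (y : A⋆) ^ 2 ∈ ψ.range := (hnorm _ y.2 _ (one_mem _)).2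
        have hyL : (y : A⋆) ∈ ψ.range := by
          obtain ⟨k, hk⟩ := hodd
          have h := pow_orderOf_eq_one y
          rw [hy, hk, pow_add, pow_one, pow_mul] at h
          have h' : (y : A⋆) = (((y : A⋆) ^ 2) ^ k)⁻¹ := by
            have := congrArg Subtype.val h
            simp only [Subgroup.coe_mul, SubmonoidClass.coe_pow, Subgroup.coe_one] at this
            exact (inv_eq_of_mul_eq_one_right this).symm
          rw [h']
          exact inv_mem (pow_mem hy2 k)
        have : orderOf (⟨y, hyL⟩ : ↥ψ.range) = p := by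
          rw [← Subgroup.orderOf_coe (⟨(y : A⋆), hyL⟩ : ↥ψ.range)]
          rw [show ((⟨(y : A⋆), hyL⟩ : ↥ψ.range) : A⋆) = ((y : ↥C) : A⋆) from rfl, Subgroup.orderOf_coe, hy]
        exact this ▸ orderOf_dvd_natCard _
    set N := Cfsg.pPrimeCore p ↥H with hN
    haveI hNn : N.Normal := inferInstance
    have hNp : ¬ p ∣ Nat.card ↥N := Cores.not_dvd_card_pPrimeCore
    have hpow : ∀ a : ↥H, a ∈ N → (∀ b ∈ ψ.range, Commute (a : A⋆) b) → a = 1 := by
      intro a ha hcomm
      have h2 : (a : A⋆) ^ p = 1 := centralizer_subSp σ hm hσ fun s => hcomm _ ⟨s, rfl⟩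
      have h3 : orderOf (⟨a, ha⟩ : ↥N) ∣ p := orderOf_dvd_of_pow_eq_one
        (Subtype.ext (Subtype.ext (by simpa using h2)))
      rcases (Nat.dvd_prime Fact.out).1 h3 with h | h
      · exact congrArg Subtype.val (orderOf_eq_one_iff.1 h)
      · exact absurd (h ▸ orderOf_dvd_natCard _) hNp
    have hNC : N ⊓ C.subgroupOf H = ⊥ := by
      have hLH : ψ.range ≤ H := hLC.trans hCH
      let ι : ↥ψ.range →* ↥H := Subgroup.inclusion hLH
      haveI : (N.comap ι).Normal := inferInstance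
      have htriv : N.comap ι = ⊥ := by
        refine normal_coprime_trivial hm (p := p) (fun h => hp2 ?_) ψ (subSp_ker σ hm) hpL _ fun h => hNp ?_
        · exact congrArg Subtype.val h
        · exact h.trans (Subgroup.card_comap_dvd_of_injective N ι (Subgroup.inclusion_injective hLH))
      refine (Subgroup.eq_bot_iff_forall _).2 fun a ha => hpow a ha.1 fun b hb => ?_
      have hconj := (hnorm _ ha.2 b hb).1
      let b' : ↥H := ⟨b, hLH hb⟩
      have hmemN : a * b' * a⁻¹ * b'⁻¹ ∈ N := by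
        rw [mul_assoc a, mul_assoc a]
        exact N.mul_mem ha.1 (hNn.conj_mem _ (N.inv_mem ha.1) b')
      have hmemL : ((a * b' * a⁻¹ * b'⁻¹ : ↥H) : A⋆) ∈ ψ.range := mul_mem hconj (inv_mem hb)
      have hmem : (⟨_, hmemL⟩ : ↥ψ.range) ∈ N.comap ι := hmemN
      rw [htriv, Subgroup.mem_bot, Subtype.ext_iff] at hmem
      exact mul_inv_eq_iff_eq_mul.1 (mul_inv_eq_one.1 hmem)
    refine hne ((Subgroup.eq_bot_iff_forall _).2 fun a ha => hpow a ha fun b hb => ?_)
    let b' : ↥H := ⟨b, hCH (hLC hb)⟩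
    have hb' : b' ∈ C.subgroupOf H := hLC hb
    have hmem : a * b' * a⁻¹ * b'⁻¹ ∈ N ⊓ C.subgroupOf H := by
      refine ⟨?_, (C.subgroupOf H).mul_mem (hCn.conj_mem _ hb' a) ((C.subgroupOf H).inv_mem hb')⟩
      rw [mul_assoc a, mul_assoc a]
      exact N.mul_mem ha (hNn.conj_mem _ (N.inv_mem ha) b')
    rw [hNC, Subgroup.mem_bot, Subtype.ext_iff] at hmem
    exact mul_inv_eq_iff_eq_mul.1 (mul_inv_eq_one.1 hmem)

/-- `O_{p'}` of the centralizer of a non-inner-diagonal automorphism of prime order. -/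
theorem local_balance [Finite F] (hm : 2 ≤ m) {p : ℕ} [Fact p.Prime] (hp2 : (2 : F) = 0 → p ≠ 2)
    (A : Subgroup A⋆) (hinn : Cfsg.Inn (Cfsg.PSp m F) ≤ A) {x : A⋆} (hord : orderOf x = p)
    (hnot : x ∉ Cfsg.inndiagPSp m F) :
    Cfsg.pPrimeCore p ↥(A ⊓ Subgroup.centralizer {x}) ≠ ⊥ ↔
      (Cfsg.IsFieldAutClassPSp x ∧
        Nat.Coprime p (Nat.card ↥(MonoidHom.eqLocus x.toMonoidHom (MonoidHom.id (Cfsg.PSp m F))))) := by
  classical
  have hdec : ∃ (d : GS) (σ : F ≃+* F), x = conjAut d * fieldAut σ := by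
    by_cases hgen : (2 : F) ≠ 0 ∨ 3 ≤ m
    · exact exists_decomp hm hgen x
    push Not at hgen
    obtain ⟨k, hk⟩ := (Fact.out : p.Prime).odd_of_ne_two (hp2 hgen.1)
    have hx : x ^ (k + 1) * x ^ (k + 1) = x := by
      rw [← pow_add, show k + 1 + (k + 1) = p + 1 by omega, pow_succ, ← hord, pow_orderOf_eq_one, one_mul]
    rw [← hx]
    exact exists_decomp_sq hm (x ^ (k + 1))
  obtain ⟨d, σ, hx⟩ := hdec
  have hσ1 : σ ≠ 1 := fun h => hnot (by
    rw [hx, h, map_one, mul_one]; exact mem_inndiagPSp.2 ⟨d, rfl⟩)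
  have hxp : x ^ p = 1 := by rw [← hord]; exact pow_orderOf_eq_one x
  have hσp : σ ^ p = 1 := by
    have h := AutPSL.twistNorm_apply conjAut (fieldAut σ : A⋆) (gspMap σ)
      (fun g => fieldAut_mul_conjAut σ g) d p
    rw [← hx, hxp, ← map_pow] at h
    exact (conj_field_eq_one hm h.symm).1
  have hσ : orderOf σ = p := orderOf_eq_prime hσp hσ1
  obtain ⟨g, hg⟩ := field_coset hm σ hσ d (by rw [← hx, hxp])
  set α : A⋆ := conjAut g⁻¹ with hα
  have hαx : α * x * α⁻¹ = fieldAut σ := by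
    rw [hx, hg, hα, map_inv]; group
  have hclass : Cfsg.IsFieldAutClassPSp x := ⟨α, σ, hσ1, isStdFieldAutPSp_iff.2 hαx⟩
  rw [and_iff_right hclass]
  let c : A⋆ ≃* A⋆ := MulAut.conj α
  have hmap : (A ⊓ Subgroup.centralizer {x}).map c.toMonoidHom =
      A.map c.toMonoidHom ⊓ Subgroup.centralizer {(fieldAut σ : A⋆)} := by
    rw [Subgroup.map_inf _ _ _ c.injective]
    congr 1
    ext y
    rw [Subgroup.mem_map_equiv, Subgroup.mem_centralizer_singleton_iff,
      Subgroup.mem_centralizer_singleton_iff, ← c.injective.eq_iff]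
    simp only [map_mul, MulEquiv.apply_symm_apply]
    rw [show c x = fieldAut σ from hαx]
  let e : ↥(A ⊓ Subgroup.centralizer {x}) ≃*
      ↥(A.map c.toMonoidHom ⊓ Subgroup.centralizer {(fieldAut σ : A⋆)}) :=
    ((A ⊓ Subgroup.centralizer {x}).equivMapOfInjective _ c.injective).trans (MulEquiv.subgroupCongr hmap)
  have hiff : Cfsg.pPrimeCore p ↥(A ⊓ Subgroup.centralizer {x}) = ⊥ ↔
      Cfsg.pPrimeCore p ↥(A.map c.toMonoidHom ⊓ Subgroup.centralizer {(fieldAut σ : A⋆)}) = ⊥ := by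
    rw [← Cores.map_pPrimeCore_equiv e]
    exact (Subgroup.map_eq_bot_iff_of_injective _ e.injective).symm
  have hinn' : Cfsg.Inn (Cfsg.PSp m F) ≤ A.map c.toMonoidHom := by
    intro y hy
    haveI := AutPSL.inn_normal (Cfsg.PSp m F)
    refine ⟨c.symm y, hinn ?_, c.apply_symm_apply y⟩
    show α⁻¹ * y * α ∈ _
    simpa using Subgroup.Normal.conj_mem inferInstance y hy α⁻¹
  have hcard : Nat.card ↥(MonoidHom.eqLocus x.toMonoidHom (MonoidHom.id (Cfsg.PSp m F))) =
      Nat.card ↥(MonoidHom.eqLocus (fieldAut σ : A⋆).toMonoidHom (MonoidHom.id (Cfsg.PSp m F))) := by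
    refine Nat.card_congr (Equiv.subtypeEquiv α.toEquiv fun k => ?_)
    show x k = k ↔ (fieldAut σ : A⋆) (α k) = α k
    rw [← hαx]
    simp
  rw [hcard, ne_eq, hiff]
  exact local_std hm hp2 σ hσ _ hinn'

end Cfsg.Agent.AutPSp
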